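import Mathlib
import Cfsg.Agent.S0175
import Cfsg.Agent.S0176
import Cfsg.Agent.Lib.Helper80.Constituent

/-!
# Ambient derived series of subgroups, and Taketa's theorem with the number of degrees (helper4)
-/

set_option autoImplicit false
set_option linter.style.haveILetI false
set_option linter.unusedSectionVars false

namespace Cfsg.Agent.Lib.Helper4.DlSylow

open Cfsg Cfsg.Agent.Lib.Helper3
open scoped commutatorElement

section ds
variable {G : Type*} [Group G]

/-- the derived series of a subgroup, inside the ambient group. -/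
def ds (R : Subgroup G) : ℕ → Subgroup G
  | 0 => R
  | (k + 1) => ⁅ds R k, ds R k⁆

@[simp] theorem ds_zero (R : Subgroup G) : ds R 0 = R := rfl

theorem ds_succ (R : Subgroup G) (k : ℕ) : ds R (k + 1) = ⁅ds R k, ds R k⁆ := rfl

theorem ds_mono {R S : Subgroup G} (h : R ≤ S) (k : ℕ) : ds R k ≤ ds S k := by
  induction k with
  | zero => exact h
  | succ k ih => exact Subgroup.commutator_mono ih ih

theorem commutator_self_le (A : Subgroup G) : ⁅A, A⁆ ≤ A := by
  rw [Subgroup.commutator_le]
  intro a ha b hb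
  exact A.mul_mem (A.mul_mem (A.mul_mem ha hb) (A.inv_mem ha)) (A.inv_mem hb)

theorem ds_succ_le (R : Subgroup G) (k : ℕ) : ds R (k + 1) ≤ ds R k := commutator_self_le _

theorem ds_anti (R : Subgroup G) {k k' : ℕ} (h : k ≤ k') : ds R k' ≤ ds R k := by
  induction h with
  | refl => exact le_rfl
  | step _ ih => exact (ds_succ_le R _).trans ih

theorem ds_le (R : Subgroup G) (k : ℕ) : ds R k ≤ R := ds_anti R (Nat.zero_le k)

theorem ds_add (R : Subgroup G) (k j : ℕ) : ds (ds R k) j = ds R (k + j) := by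
  induction j with
  | zero => rfl
  | succ j ih => rw [ds_succ, ih]; rfl

theorem ds_map {H : Type*} [Group H] (f : G →* H) (R : Subgroup G) (k : ℕ) :
    (ds R k).map f = ds (R.map f) k := by
  induction k with
  | zero => rfl
  | succ k ih => rw [ds_succ, Subgroup.map_commutator, ih]; rfl

theorem ds_eq (R : Subgroup G) (k : ℕ) : (derivedSeries R k).map R.subtype = ds R k := by
  induction k with
  | zero =>
    rw [derivedSeries_zero, ds_zero, ← MonoidHom.range_eq_map, Subgroup.range_subtype]
  | succ k ih => rw [derivedSeries_succ, Subgroup.map_commutator, ih]; rfl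

theorem ds_bot (k : ℕ) : ds (⊥ : Subgroup G) k = ⊥ := le_bot_iff.1 (ds_le ⊥ k)

theorem ds_eq_bot_of_le {R : Subgroup G} {k k' : ℕ} (h : k ≤ k') (hk : ds R k = ⊥) :
    ds R k' = ⊥ := le_bot_iff.1 (hk ▸ ds_anti R h)

theorem derivedSeries_eq_bot_of_ds {R : Subgroup G} {k : ℕ} (h : ds R k = ⊥) :
    derivedSeries R k = ⊥ := by
  rw [← ds_eq] at h
  exact (Subgroup.map_eq_bot_iff_of_injective _ R.subtype_injective).1 h

theorem ds_eq_bot_of_derivedSeries {R : Subgroup G} {k : ℕ} (h : derivedSeries R k = ⊥) :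
    ds R k = ⊥ := by
  rw [← ds_eq, h, Subgroup.map_bot]

end ds

section taketa
variable {G : Type*} [Group G] [Fintype G]

/-- Taketa's argument with an arbitrary rank function on the degrees. -/
theorem taketa_aux
    (hM : ∀ χ : G → ℂ, Cfsg.IsIrrCharacter G χ →
      ∃ (H : Subgroup G) (lam : H →* ℂˣ), χ = Cfsg.indFun H (fun h => (lam h : ℂ)))
    (r : ℕ → ℕ)
    (hr : ∀ a b : ℕ, a < b → (∃ χ : G → ℂ, IsIrrCharacter G χ ∧ χ 1 = b) → r a + 1 ≤ r b)
    (hrm : Monotone r) (d : ℕ) :
    ∀ χ : G → ℂ, IsIrrCharacter G χ → ∀ m : ℕ, χ 1 = m → m ≤ d →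
      ∀ g ∈ derivedSeries G (r m), χ g = χ 1 := by
  induction d with
  | zero =>
    intro χ hχ m hm hle
    exfalso
    apply IsIrrCharacter.apply_one_ne_zero hχ
    rw [hm, Nat.le_zero.mp hle, Nat.cast_zero]
  | succ d ih =>
    intro χ hχ m hm hle g hg
    obtain ⟨H, lam, hlam⟩ := hM χ hχ
    classical
    have := Fintype.ofFinite H
    set π : G → ℂ := indFun H (fun _ => (1 : ℂ)) with hπdef
    have hπ : IsCharacter G π :=
      isCharacter_indFun H (IsIrrCharacter.isCharacter isIrrCharacter_one)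
    obtain ⟨c, hcinner, hc, hcdeg⟩ := Cfsg.Agent.Lib.Helper80.exists_mult_spec hπ
    have hπ1 : π 1 = H.index := by rw [hπdef, indFun_one]; simp
    have hχ1 : χ 1 = H.index := by rw [hlam, indFun_one]; simp
    have hmH : m = H.index := by
      rw [hm] at hχ1
      exact_mod_cast hχ1
    have hmpos : 0 < m := by
      rw [hmH]; exact Nat.pos_of_ne_zero (Subgroup.index_ne_zero_of_finite)
    have hc1 : c (oneIrr G) = 1 := by
      have h1 := hcinner (oneIrr G)
      rw [hπdef, frobenius_reciprocity H _ (IsIrrCharacter.isClassFunction (oneIrr G).2)] at h1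
      have h2 : classInner (fun _ : H => (1 : ℂ)) (fun h : H => (oneIrr G : G → ℂ) h) = 1 :=
        classInner_irr_self (isIrrCharacter_one (G := H))
      rw [h2] at h1
      exact_mod_cast h1.symm
    have hdegπ : charDegree π = m := by
      have := Cfsg.Agent.Lib.Helper80.char_one_eq_charDegree hπ
      rw [hπ1, ← hmH] at this
      exact_mod_cast this.symm
    have hdeg1 : charDegree ((oneIrr G : IrrCharacter G) : G → ℂ) = 1 := by
      have h1 : ((oneIrr G : IrrCharacter G) : G → ℂ) 1 = 1 := rfl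
      have := Cfsg.Agent.Lib.Helper80.char_one_eq_charDegree
        (IsIrrCharacter.isCharacter (oneIrr G).2)
      rw [h1] at this
      exact_mod_cast this.symm
    have hle' : ∀ ψ : IrrCharacter G, ψ ≠ oneIrr G → c ψ ≠ 0 →
        charDegree (ψ : G → ℂ) < m := by
      intro ψ hψ1 hcψ
      have h1 : ∑ φ ∈ ({ψ, oneIrr G} : Finset (IrrCharacter G)), c φ * charDegree (φ : G → ℂ) ≤
          ∑ φ, c φ * charDegree (φ : G → ℂ) :=
        Finset.sum_le_sum_of_subset (Finset.subset_univ _)
      rw [Finset.sum_pair hψ1, hc1, hdeg1, ← hcdeg, hdegπ] at h1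
      have h2 : charDegree (ψ : G → ℂ) ≤ c ψ * charDegree (ψ : G → ℂ) :=
        Nat.le_mul_of_pos_left _ (Nat.pos_of_ne_zero hcψ)
      omega
    have hrm1 : r (m - 1) + 1 ≤ r m := hr (m - 1) m (by omega) ⟨χ, hχ, hm⟩
    have hN : ∀ x ∈ derivedSeries G (r (m - 1)), π x = π 1 := by
      intro x hx
      rw [hc]
      simp only [Finset.sum_apply, Pi.smul_apply]
      refine Finset.sum_congr rfl fun ψ _ => ?_
      by_cases hψ1 : ψ = oneIrr G
      · rw [hψ1]; rfl
      · by_cases hcψ : c ψ = 0
        · rw [hcψ]; simp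
        · have hlt := hle' ψ hψ1 hcψ
          have hx' : x ∈ derivedSeries G (r (charDegree (ψ : G → ℂ))) :=
            derivedSeries_antitone G (hrm (by omega)) hx
          rw [ih ψ ψ.2 (charDegree (ψ : G → ℂ))
            (Cfsg.Agent.Lib.Helper80.char_one_eq_charDegree (IsIrrCharacter.isCharacter ψ.2))
            (by omega) x hx']
    have hNH : derivedSeries G (r (m - 1)) ≤ H :=
      fun x hx => Cfsg.Agent.S0175.mem_of_indFun_one_eq H x (hN x hx)
    have hker : derivedSeries G (r (m - 1) + 1) ≤ (lam.ker).map H.subtype := by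
      rw [derivedSeries_succ, Subgroup.commutator_le]
      intro a ha b hb
      refine ⟨⁅(⟨a, hNH ha⟩ : H), (⟨b, hNH hb⟩ : H)⁆, ?_, rfl⟩
      simp only [SetLike.mem_coe, MonoidHom.mem_ker, map_commutatorElement]
      rw [commutatorElement_eq_one_iff_mul_comm, mul_comm]
    have hg' : g ∈ derivedSeries G (r (m - 1) + 1) := derivedSeries_antitone G hrm1 hg
    have hnorm : (derivedSeries G (r (m - 1) + 1)).Normal := inferInstance
    have hval : ∀ y : G, extendByZero H (fun h => (lam h : ℂ)) (y⁻¹ * g * y) =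
        extendByZero H (fun h => (lam h : ℂ)) (y⁻¹ * 1 * y) := by
      intro y
      have h1 : y⁻¹ * g * y ∈ derivedSeries G (r (m - 1) + 1) := by
        have := hnorm.conj_mem g hg' y⁻¹
        rwa [inv_inv] at this
      obtain ⟨z, hz, hzy⟩ := hker h1
      have h2 : y⁻¹ * 1 * y = ((1 : H) : G) := by simp
      rw [← hzy, h2]
      simp only [Subgroup.subtype_apply, extendByZero_apply_coe]
      rw [MonoidHom.mem_ker.mp hz, map_one]
    rw [hlam, indFun_apply, indFun_apply]
    simp only [hval]

open Classical in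
/-- the set of irreducible character degrees, as a finset. -/
noncomputable def cdF (G : Type*) [Group G] [Fintype G] : Finset ℕ :=
  Finset.image (fun χ : IrrCharacter G => charDegree (χ : G → ℂ)) Finset.univ

/-- **Taketa**: the derived length of an M-group is at most the number of its degrees. -/
theorem taketa_card
    (hM : ∀ χ : G → ℂ, Cfsg.IsIrrCharacter G χ →
      ∃ (H : Subgroup G) (lam : H →* ℂˣ), χ = Cfsg.indFun H (fun h => (lam h : ℂ))) :
    derivedSeries G (cdF G).card = ⊥ := by
  classical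
  let r : ℕ → ℕ := fun m => ((cdF G).filter (· ≤ m)).card
  have hrm : Monotone r := by
    intro a b hab
    apply Finset.card_le_card
    intro x hx
    rw [Finset.mem_filter] at hx ⊢
    exact ⟨hx.1, hx.2.trans hab⟩
  have hr : ∀ a b : ℕ, a < b → (∃ χ : G → ℂ, IsIrrCharacter G χ ∧ χ 1 = b) → r a + 1 ≤ r b := by
    rintro a b hab ⟨χ, hχ, hb⟩
    have hbmem : b ∈ cdF G := by
      unfold cdF
      refine Finset.mem_image.2 ⟨(⟨χ, hχ⟩ : IrrCharacter G), Finset.mem_univ _, ?_⟩
      have := Cfsg.Agent.Lib.Helper80.char_one_eq_charDegree (IsIrrCharacter.isCharacter hχ)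
      rw [hb] at this
      exact_mod_cast this.symm
    apply Nat.succ_le_of_lt
    apply Finset.card_lt_card
    rw [Finset.ssubset_iff_of_subset]
    · exact ⟨b, Finset.mem_filter.2 ⟨hbmem, le_rfl⟩, fun h => by
        have := (Finset.mem_filter.1 h).2
        omega⟩
    · intro x hx
      rw [Finset.mem_filter] at hx ⊢
      exact ⟨hx.1, hx.2.trans hab.le⟩
  rw [eq_bot_iff]
  intro g hg
  rw [Subgroup.mem_bot]
  have h1 : IsConj g 1 := by
    rw [isConj_iff_forall_irr]
    intro χ
    have hχ1 := Cfsg.Agent.Lib.Helper80.char_one_eq_charDegree (IsIrrCharacter.isCharacter χ.2)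
    refine taketa_aux hM r hr hrm _ χ χ.2 _ hχ1 le_rfl g ?_
    exact derivedSeries_antitone G (Finset.card_le_card (Finset.filter_subset _ _)) hg
  exact isConj_one_left.mp h1

end taketa

end Cfsg.Agent.Lib.Helper4.DlSylow
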