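import Cfsg.Agent.Lib.Helper4.DlSylowA
import Cfsg.Agent.Lib.Helper76.ItoDeg
import Cfsg.Agent.Lib.Helper76.TIFaithB
import Cfsg.Agent.Lib.Helper15.Clifford2

/-!
# Characters of degree divisible by `p` and the derived length of a Sylow `p`-subgroup of a
`p`-solvable group (helper4)
-/

set_option autoImplicit false
set_option linter.style.haveILetI false
set_option linter.unusedSectionVars false

namespace Cfsg.Agent.Lib.Helper4.DlSylow

open Cfsg Cfsg.Agent.Lib.Helper80
open scoped ComplexConjugate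

section count
variable (p : ℕ)

/-- number of irreducible characters of degree divisible by `p`. -/
noncomputable def nP (G : Type*) [Group G] : ℕ :=
  Nat.card {χ : IrrCharacter G // p ∣ charDegree (χ : G → ℂ)}

/-- number of irreducible characters of degree divisible by `p` not trivial on `N`. -/
noncomputable def nB {G : Type*} [Group G] (N : Subgroup G) : ℕ :=
  Nat.card {χ : IrrCharacter G // p ∣ charDegree (χ : G → ℂ) ∧
    ∃ x ∈ N, (χ : G → ℂ) x ≠ (χ : G → ℂ) 1}

variable {G : Type*} [Group G] [Finite G]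

theorem nP_quot_add_le (N : Subgroup G) [N.Normal] : nP p (G ⧸ N) + nB p N ≤ nP p G := by
  classical
  unfold nP nB
  rw [← Nat.card_sum]
  let f : {χ : IrrCharacter (G ⧸ N) // p ∣ charDegree (χ : G ⧸ N → ℂ)} ⊕
      {χ : IrrCharacter G // p ∣ charDegree (χ : G → ℂ) ∧
        ∃ x ∈ N, (χ : G → ℂ) x ≠ (χ : G → ℂ) 1} →
      {χ : IrrCharacter G // p ∣ charDegree (χ : G → ℂ)} := fun s =>
    match s with
    | Sum.inl ψ => ⟨(inflateEquiv N ψ.1).1, by rw [charDegree_inflate]; exact ψ.2⟩
    | Sum.inr χ => ⟨χ.1, χ.2.1⟩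
  apply Nat.card_le_card_of_injective f
  rintro (a | a) (b | b) hab
  · have h1 : (inflateEquiv N a.1).1 = (inflateEquiv N b.1).1 := by
      have := congrArg Subtype.val hab
      exact this
    have h2 : a.1 = b.1 := (inflateEquiv N).injective (Subtype.ext h1)
    exact congrArg Sum.inl (Subtype.ext h2)
  · exfalso
    have h1 : (inflateEquiv N a.1).1 = b.1 := by
      have := congrArg Subtype.val hab
      exact this
    obtain ⟨x, hx, hne⟩ := b.2.2
    apply hne
    rw [← h1]
    exact (inflateEquiv N a.1).2 x hx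
  · exfalso
    have h1 : a.1 = (inflateEquiv N b.1).1 := by
      have := congrArg Subtype.val hab
      exact this
    obtain ⟨x, hx, hne⟩ := a.2.2
    apply hne
    rw [h1]
    exact (inflateEquiv N b.1).2 x hx
  · have h1 : a.1 = b.1 := by
      have := congrArg Subtype.val hab
      exact this
    exact congrArg Sum.inr (Subtype.ext h1)

theorem nP_quot_le (N : Subgroup G) [N.Normal] : nP p (G ⧸ N) ≤ nP p G :=
  le_trans (Nat.le_add_right _ _) (nP_quot_add_le p N)

end count

section chars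
variable {G : Type*} [Group G] [Fintype G]

/-- The kernel of a character is contained in the kernel of its constituents. -/
theorem ker_constituent {α : G → ℂ} (hα : IsCharacter G α) (θ : IrrCharacter G)
    (h : classInner α (θ : G → ℂ) ≠ 0) {k : G} (hk : α k = α 1) :
    (θ : G → ℂ) k = (θ : G → ℂ) 1 := by
  classical
  obtain ⟨m, hm, hexp, -⟩ := exists_mult_spec hα
  have hv : ∀ g, α g = ∑ ψ : IrrCharacter G, (m ψ : ℂ) * (ψ : G → ℂ) g := by
    intro g
    conv_lhs => rw [hexp]
    simp [Finset.sum_apply]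
  have hre : ∀ ψ : IrrCharacter G, ((ψ : G → ℂ) k).re ≤ (charDegree (ψ : G → ℂ) : ℝ) := fun ψ =>
    le_trans (Complex.re_le_norm _)
      (Cfsg.Agent.Lib.Helper76.norm_le_charDegree (isCharacter_of_irr ψ.2) k)
  have h1 : ∑ ψ : IrrCharacter G, (m ψ : ℝ) *
      ((charDegree (ψ : G → ℂ) : ℝ) - ((ψ : G → ℂ) k).re) = 0 := by
    have h2 : (α 1 - α k).re = 0 := by rw [hk]; simp
    rw [hv, hv, ← Finset.sum_sub_distrib, Complex.re_sum] at h2
    rw [← h2]
    refine Finset.sum_congr rfl fun ψ _ => ?_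
    rw [char_one_eq_charDegree (isCharacter_of_irr ψ.2)]
    simp [mul_sub]
  have h3 := (Finset.sum_eq_zero_iff_of_nonneg (fun ψ _ =>
    mul_nonneg (Nat.cast_nonneg _) (sub_nonneg.2 (hre ψ)))).1 h1 θ (Finset.mem_univ _)
  have hmθ : (m θ : ℝ) ≠ 0 := by
    intro h0
    apply h
    rw [hm]
    have : m θ = 0 := by exact_mod_cast h0
    rw [this]; simp
  have h4 : ((θ : G → ℂ) k).re = (charDegree (θ : G → ℂ) : ℝ) := by
    rcases mul_eq_zero.1 h3 with h5 | h5
    · exact absurd h5 hmθ
    · linarith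
  have h5 := Cfsg.Agent.Lib.Helper76.norm_le_charDegree (isCharacter_of_irr θ.2) k
  rw [char_one_eq_charDegree (isCharacter_of_irr θ.2)]
  have h6 : ((θ : G → ℂ) k).im = 0 := by
    have h7 : ‖(θ : G → ℂ) k‖ ^ 2 = ((θ : G → ℂ) k).re ^ 2 + ((θ : G → ℂ) k).im ^ 2 := by
      rw [Complex.sq_norm, Complex.normSq_apply]; ring
    have h8 : ‖(θ : G → ℂ) k‖ ^ 2 ≤ (charDegree (θ : G → ℂ) : ℝ) ^ 2 :=
      pow_le_pow_left₀ (norm_nonneg _) h5 2
    rw [h7, h4] at h8
    have h9 : ((θ : G → ℂ) k).im ^ 2 ≤ 0 := by linarith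
    exact pow_eq_zero_iff (two_ne_zero) |>.1 (le_antisymm h9 (sq_nonneg _))
  apply Complex.ext
  · rw [h4]; simp
  · rw [h6]; simp

/-- An irreducible character of `G` over a given irreducible character of a normal subgroup. -/
theorem exists_over (N : Subgroup G) [N.Normal] [Fintype N] (θ : IrrCharacter N) :
    ∃ χ : IrrCharacter G, classInner (fun n : N => (χ : G → ℂ) n) (θ : N → ℂ) ≠ 0 ∧
      charDegree (θ : N → ℂ) ∣ charDegree (χ : G → ℂ) := by
  classical
  have hθc := isCharacter_of_irr θ.2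
  have hind : IsCharacter G (indFun N θ.1) := Cfsg.Agent.Lib.Helper3.isCharacter_indFun N hθc
  have hne : indFun N θ.1 ≠ 0 := by
    intro h
    have h1 := Cfsg.Agent.Lib.Helper3.indFun_one N θ.1
    rw [h, Pi.zero_apply] at h1
    have h2 : (N.index : ℂ) ≠ 0 := by exact_mod_cast N.index_ne_zero_of_finite
    exact mul_ne_zero h2 (char_one_ne_zero_of_irr θ.2) h1.symm
  obtain ⟨χ, hχ⟩ := exists_constituent hind hne
  have hχc := isCharacter_of_irr χ.2
  have hcon : classInner (fun n : N => χ.1 n) θ.1 ≠ 0 :=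
    (classInner_indFun_ne_zero_iff N θ.1 (isClassFunction_of_char hχc)).mp hχ
  obtain ⟨h1, -⟩ := Cfsg.Agent.S0887.result N χ.1 χ.2 θ.1 θ.2 hcon _ _
    (char_one_eq_charDegree hχc) (char_one_eq_charDegree hθc)
  exact ⟨χ, hcon, h1⟩

end chars

end Cfsg.Agent.Lib.Helper4.DlSylow
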