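import Cfsg.Agent.Lib.Helper4.DlSylowB

/-!
# Derived length of Sylow subgroups of `p`-solvable groups: the two key lemmas (helper4)
-/

set_option autoImplicit false
set_option linter.style.haveILetI false
set_option linter.unusedSectionVars false

namespace Cfsg.Agent.Lib.Helper4.DlSylow

open Cfsg Cfsg.Agent.Lib.Helper80 Cfsg.Agent.Lib.Lead
open scoped ComplexConjugate

variable {G : Type*} [Group G] [Finite G] (p : ℕ) [Fact p.Prime]

/-- **Lemma T**: the derived length of a normal `p`-subgroup `Q` is at most one more than the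
number of irreducible characters of `G` of degree divisible by `p` that are nontrivial on `Q`. -/
theorem ds_normal_pGroup (Q : Subgroup G) [Q.Normal] (hQ : IsPGroup p Q) :
    ds Q (nB p Q + 1) = ⊥ := by
  classical
  have := Fintype.ofFinite G
  have := Fintype.ofFinite Q
  have hnil : Group.IsNilpotent Q := hQ.isNilpotent
  have hT := taketa_card (G := Q) (fun χ hχ => Cfsg.Agent.S0176.result χ hχ)
  apply ds_eq_bot_of_derivedSeries
  suffices hcard : (cdF Q).card ≤ nB p Q + 1 by
    exact le_bot_iff.1 (hT ▸ derivedSeries_antitone Q hcard)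
  have hpred : (cdF Q).card - 1 ≤ ((cdF Q).erase 1).card := Finset.pred_card_le_card_erase
  suffices hcard' : ((cdF Q).erase 1).card ≤ nB p Q by omega
  -- choose characters
  have hex : ∀ f : {f // f ∈ (cdF Q).erase 1}, ∃ θ : IrrCharacter Q,
      charDegree (θ : Q → ℂ) = f.1 := by
    rintro ⟨f, hf⟩
    obtain ⟨θ, -, hθ⟩ := Finset.mem_image.1 (Finset.mem_of_mem_erase hf)
    exact ⟨θ, hθ⟩
  choose θ hθ using hex
  choose χ hχ hdvd using fun f => exists_over Q (θ f)
  have hprop : ∀ f : {f // f ∈ (cdF Q).erase 1}, p ∣ charDegree ((χ f : IrrCharacter G) : G → ℂ) ∧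
      ∃ x ∈ Q, ((χ f : IrrCharacter G) : G → ℂ) x ≠ ((χ f : IrrCharacter G) : G → ℂ) 1 := by
    intro f
    have hf1 : f.1 ≠ 1 := Finset.ne_of_mem_erase f.2
    constructor
    · refine dvd_trans ?_ (hdvd f)
      obtain ⟨k, hk⟩ := IsPGroup.iff_card.1 hQ
      have h1 := charDegree_dvd_card (θ f)
      rw [hk] at h1
      obtain ⟨j, -, hj⟩ := (Nat.dvd_prime_pow (Fact.out : p.Prime)).1 h1
      rw [hj]
      rcases j with _ | j
      · exfalso; apply hf1; rw [← hθ f, hj]; rfl
      · exact Dvd.intro_left _ rfl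
    · by_contra hcon
      push Not at hcon
      apply hf1
      have hχc := isCharacter_of_irr (χ f).2
      have h1 : ((θ f : IrrCharacter Q) : Q → ℂ) 1 = 1 := by
        rw [char_one_eq_one_iff]
        intro n _
        exact ker_constituent (Cfsg.Agent.Lib.Helper3.IsCharacter.restrict hχc Q) (θ f) (hχ f)
          (hcon n n.2)
      rw [char_one_eq_charDegree (isCharacter_of_irr (θ f).2), hθ f] at h1
      exact_mod_cast h1
  let F : {f // f ∈ (cdF Q).erase 1} → {χ : IrrCharacter G // p ∣ charDegree (χ : G → ℂ) ∧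
    ∃ x ∈ Q, (χ : G → ℂ) x ≠ (χ : G → ℂ) 1} := fun f => ⟨χ f, hprop f⟩
  have hF : Function.Injective F := by
    intro f f' hff
    have h1 : χ f = χ f' := congrArg Subtype.val hff
    have h2 := hχ f'
    rw [← h1] at h2
    obtain ⟨g, hg⟩ := Cfsg.Agent.Lib.Helper15.clifford_conj Q (χ f).2 (θ f).2 (θ f').2 (hχ f) h2
    have h3 : ((θ f' : IrrCharacter Q) : Q → ℂ) 1 = ((θ f : IrrCharacter Q) : Q → ℂ) 1 := by
      rw [hg, Cfsg.Agent.Lib.Helper15.cj_apply_one]
    rw [char_one_eq_charDegree (isCharacter_of_irr (θ f).2),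
      char_one_eq_charDegree (isCharacter_of_irr (θ f').2), hθ f, hθ f'] at h3
    apply Subtype.ext
    exact_mod_cast h3.symm
  have := Nat.card_le_card_of_injective F hF
  unfold nB
  rwa [Nat.card_eq_fintype_card, Fintype.card_coe] at this

/-- **The extra character**: if `O_p(G) = 1`, `K` is a normal `p'`-subgroup and `M/K` is a
nontrivial abelian normal `p`-subgroup of `G/K`, then some irreducible character of degree
divisible by `p` is nontrivial on `K`. -/
theorem one_le_nB (hcore : pCore p G = ⊥) (K M : Subgroup G) [K.Normal] [M.Normal] (hKM : K ≤ M)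
    (hK : (Nat.card K).Coprime p) (hab : ⁅M, M⁆ ≤ K) {k : ℕ} (hk : k ≠ 0)
    (hcard : Nat.card M = Nat.card K * p ^ k) : 1 ≤ nB p K := by
  classical
  have := Fintype.ofFinite G
  have := Fintype.ofFinite M
  have hp : p.Prime := Fact.out
  -- a character of `M` of degree divisible by `p`
  obtain ⟨ψ, hψ⟩ : ∃ ψ : IrrCharacter M, p ∣ charDegree (ψ : M → ℂ) := by
    by_contra hcon
    push Not at hcon
    have hN1 : (K.subgroupOf M).Normal := inferInstance
    have hc1 : Nat.card (K.subgroupOf M) = Nat.card K :=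
      Nat.card_congr (Subgroup.subgroupOfEquivOfLe hKM).toEquiv
    have hidx : (K.subgroupOf M).index = p ^ k := by
      have h1 := (K.subgroupOf M).card_mul_index
      rw [hc1, hcard] at h1
      exact Nat.eq_of_mul_eq_mul_left Nat.card_pos h1
    obtain ⟨P⟩ : Nonempty (Sylow p M) := inferInstance
    have hPn := Cfsg.Agent.Lib.Helper76.sylow_normal_of_degrees (K.subgroupOf M)
      (by rw [hc1]; exact hK) ⟨k, hidx⟩ hcon P
    have h1 : pCore p M = P := pCore_eq_of_normal_sylow P
    have h2 := pCore_normal_subgroup_le (p := p) M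
    rw [hcore, h1, le_bot_iff, Subgroup.map_eq_bot_iff_of_injective _ M.subtype_injective] at h2
    have h3 : p ∣ Nat.card M := by
      rw [hcard]
      exact Dvd.dvd.mul_left (dvd_pow_self p hk) _
    exact P.ne_bot_of_dvd_card h3 h2
  obtain ⟨χ, hχ, hdvd⟩ := exists_over M ψ
  have hmem : p ∣ charDegree (χ : G → ℂ) ∧ ∃ x ∈ K, (χ : G → ℂ) x ≠ (χ : G → ℂ) 1 := by
    refine ⟨dvd_trans hψ hdvd, ?_⟩
    by_contra hcon
    push Not at hcon
    have hχc := isCharacter_of_irr χ.2
    have h1 : (ψ : M → ℂ) 1 = 1 := by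
      rw [char_one_eq_one_iff]
      intro n hn
      refine ker_constituent (Cfsg.Agent.Lib.Helper3.IsCharacter.restrict hχc M) ψ hχ
        (hcon n ?_)
      apply hab
      have h2 : (commutator M).map M.subtype = ⁅M, M⁆ := by
        rw [commutator_def, Subgroup.map_commutator, ← MonoidHom.range_eq_map,
          Subgroup.range_subtype]
      rw [← h2]
      exact ⟨n, hn, rfl⟩
    rw [char_one_eq_charDegree (isCharacter_of_irr ψ.2)] at h1
    have h2 : charDegree (ψ : M → ℂ) = 1 := by exact_mod_cast h1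
    rw [h2] at hψ
    exact hp.one_lt.ne' (Nat.dvd_one.1 hψ)
  unfold nB
  have : Nonempty {χ : IrrCharacter G // p ∣ charDegree (χ : G → ℂ) ∧
    ∃ x ∈ K, (χ : G → ℂ) x ≠ (χ : G → ℂ) 1} := ⟨⟨χ, hmem⟩⟩
  exact Nat.card_pos

end Cfsg.Agent.Lib.Helper4.DlSylow
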