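import Cfsg.Agent.Lib.Helper4.DlSylowC

/-!
# Derived length of Sylow subgroups of `p`-solvable groups: the induction (helper4)
-/

set_option autoImplicit false
set_option linter.style.haveILetI false
set_option linter.unusedSectionVars false

namespace Cfsg.Agent.Lib.Helper4.DlSylow

open Cfsg Cfsg.Agent.Lib.Helper80 Cfsg.Agent.Lib.Lead Cfsg.Agent.Lib.Helper76
open scoped commutatorElement

universe u

/-- all `p`-subgroups have derived length at most `k`. -/
def D (p : ℕ) (G : Type*) [Group G] (k : ℕ) : Prop :=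
  ∀ R : Subgroup G, IsPGroup p R → ds R k = ⊥

section
variable {G : Type*} [Group G] {p : ℕ}

theorem D_mono {k k' : ℕ} (h : k ≤ k') (hD : D p G k) : D p G k' :=
  fun R hR => ds_eq_bot_of_le h (hD R hR)

theorem D_of_trivial (h : (⊤ : Subgroup G) ≤ ⊥) (k : ℕ) : D p G k := by
  intro R _
  have : R = ⊥ := le_bot_iff.1 (le_trans le_top h)
  rw [this, ds_bot]

theorem D_of_quot_pprime [Finite G] [Fact p.Prime] (K : Subgroup G) [K.Normal]
    (hK : (Nat.card K).Coprime p) {k : ℕ} (h : D p (G ⧸ K) k) : D p G k := by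
  intro R hR
  have h1 := h (R.map (QuotientGroup.mk' K)) (hR.map _)
  rw [← ds_map, Subgroup.map_eq_bot_iff, QuotientGroup.ker_mk'] at h1
  have h2 : IsPGroup p (ds R k) := hR.to_le (ds_le R k)
  obtain ⟨j, hj⟩ := IsPGroup.iff_card.1 h2
  have h3 : Nat.card (ds R k) ∣ Nat.card K := Subgroup.card_dvd_of_le h1
  have h4 : (Nat.card (ds R k)).Coprime p := Nat.Coprime.of_dvd_left h3 hK
  rw [hj] at h4
  rcases j with _ | j
  · exact Subgroup.eq_bot_of_card_eq _ (by rw [hj]; rfl)
  · exfalso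
    have hp : p.Prime := Fact.out
    have h5 : p ∣ Nat.gcd (p ^ (j + 1)) p := Nat.dvd_gcd (dvd_pow_self p (Nat.succ_ne_zero j)) dvd_rfl
    rw [h4] at h5
    exact hp.one_lt.ne' (Nat.dvd_one.1 h5)

theorem D_of_quot_p (Q : Subgroup G) [Q.Normal] {k j : ℕ} (h : D p (G ⧸ Q) k)
    (hQ : ds Q j = ⊥) : D p G (k + j) := by
  intro R hR
  have h1 := h (R.map (QuotientGroup.mk' Q)) (hR.map _)
  rw [← ds_map, Subgroup.map_eq_bot_iff, QuotientGroup.ker_mk'] at h1
  rw [← ds_add]
  exact le_bot_iff.1 (hQ ▸ ds_mono h1 j)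

end

theorem top_le_bot_of_cores {G : Type*} [Group G] [Finite G] {p : ℕ} [Fact p.Prime]
    (hsol : IsPSolvable p G) (h1 : pPrimeCore p G = ⊥) (h2 : pCore p G = ⊥) :
    (⊤ : Subgroup G) ≤ ⊥ := by
  have h := centralizer_pCore_le hsol h1
  rw [h2] at h
  intro x _
  apply h
  rw [Subgroup.mem_centralizer_iff]
  intro y hy
  have : y = 1 := Subgroup.mem_bot.1 hy
  rw [this]; simp

theorem one_le_nB' {G : Type*} [Group G] [Finite G] (p : ℕ) [Fact p.Prime]
    (hcore : pCore p G = ⊥) (K : Subgroup G) [K.Normal] (hKc : (Nat.card K).Coprime p)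
    (hO : pCore p (G ⧸ K) ≠ ⊥) : 1 ≤ nB p K := by
  obtain ⟨O, hOdef⟩ : ∃ O, O = pCore p (G ⧸ K) := ⟨_, rfl⟩
  have hOn : O.Normal := by rw [hOdef]; infer_instance
  have hOp : IsPGroup p O := by rw [hOdef]; exact pCore_isPGroup p _
  have hO1 : Nontrivial O := by
    rw [Subgroup.nontrivial_iff_ne_bot, hOdef]; exact hO
  let Zb : Subgroup (G ⧸ K) := (Subgroup.center O).map O.subtype
  have hZn : Zb.Normal := normal_map_subtype_of_characteristic O _
  let M : Subgroup G := Zb.comap (QuotientGroup.mk' K)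
  have hMn : M.Normal := hZn.comap _
  have hKM : K ≤ M := by
    intro x hx
    show (QuotientGroup.mk' K) x ∈ Zb
    have : (QuotientGroup.mk' K) x = 1 := (QuotientGroup.eq_one_iff x).2 hx
    rw [this]; exact Zb.one_mem
  have hab : ⁅M, M⁆ ≤ K := by
    rw [Subgroup.commutator_le]
    intro a ha b hb
    obtain ⟨z₁, hz₁, e₁⟩ := (show (QuotientGroup.mk' K) a ∈ Zb from ha)
    obtain ⟨z₂, hz₂, e₂⟩ := (show (QuotientGroup.mk' K) b ∈ Zb from hb)
    rw [← QuotientGroup.eq_one_iff]
    have h1 : ((⁅a, b⁆ : G) : G ⧸ K) =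
        ⁅(QuotientGroup.mk' K) a, (QuotientGroup.mk' K) b⁆ :=
      map_commutatorElement (QuotientGroup.mk' K) a b
    rw [h1, ← e₁, ← e₂, commutatorElement_eq_one_iff_mul_comm]
    have h2 : z₁ * z₂ = z₂ * z₁ := (Subgroup.mem_center_iff.1 hz₂ z₁)
    exact congrArg Subtype.val h2
  have hZp : IsPGroup p (Subgroup.center O) := hOp.to_subgroup _
  obtain ⟨k, hk⟩ := IsPGroup.iff_card.1 hZp
  have hk0 : k ≠ 0 := by
    rintro rfl
    have := hOp.center_nontrivial
    have h1 : 1 < Nat.card (Subgroup.center O) := Finite.one_lt_card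
    rw [hk] at h1
    simp at h1
  have hcard : Nat.card M = Nat.card K * p ^ k := by
    rw [card_comap_mk', ← hk]
    congr 1
    exact Subgroup.card_map_of_injective O.subtype_injective
  exact one_le_nB p hcore K M hKM hKc hab hk0 hcard

theorem main (p : ℕ) [Fact p.Prime] (n : ℕ) : ∀ (G : Type u) [Group G] [Finite G],
    Nat.card G = n → IsPSolvable p G →
      D p G (nP p G + 1) ∧ (pCore p G = ⊥ → D p G (nP p G)) := by
  induction n using Nat.strong_induction_on with
  | _ n IH =>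
  intro G _ _ hn hsol
  have hKc : (Nat.card (pPrimeCore p G)).Coprime p := card_pPrimeCore_coprime p
  have IHq : ∀ (N : Subgroup G) [N.Normal], N ≠ ⊥ →
      D p (G ⧸ N) (nP p (G ⧸ N) + 1) ∧ (pCore p (G ⧸ N) = ⊥ → D p (G ⧸ N) (nP p (G ⧸ N))) := by
    intro N _ hN
    refine IH (Nat.card (G ⧸ N)) ?_ (G ⧸ N) rfl (isPSolvable_quotient N hsol)
    rw [← hn, ← N.card_mul_index, ← Subgroup.index_eq_card]
    have h1 : 1 < Nat.card N := by
      rw [Subgroup.one_lt_card_iff_ne_bot]; exact hN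
    have h2 : 0 < N.index := Nat.pos_of_ne_zero Subgroup.index_ne_zero_of_finite
    nlinarith
  constructor
  · by_cases hK : pPrimeCore p G = ⊥
    · by_cases hQ : pCore p G = ⊥
      · exact D_of_trivial (top_le_bot_of_cores hsol hK hQ) _
      · have ih := (IHq (pCore p G) hQ).2 (pCore_quotient_pCore p G)
        have hT := ds_normal_pGroup p (pCore p G) (pCore_isPGroup p G)
        have h1 := D_of_quot_p (pCore p G) ih hT
        have h2 := nP_quot_add_le p (pCore p G)
        exact D_mono (by omega) h1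
    · have ih := (IHq (pPrimeCore p G) hK).1
      have h2 := nP_quot_le p (pPrimeCore p G)
      exact D_of_quot_pprime _ hKc (D_mono (by omega) ih)
  · intro hcore
    by_cases hK : pPrimeCore p G = ⊥
    · exact D_of_trivial (top_le_bot_of_cores hsol hK hcore) _
    · have ih := (IHq (pPrimeCore p G) hK).1
      by_cases hO : pCore p (G ⧸ pPrimeCore p G) = ⊥
      · exact D_of_quot_pprime _ hKc (D_of_trivial (top_le_bot_of_cores
          (isPSolvable_quotient _ hsol) (pPrimeCore_quotient_pPrimeCore p G) hO) _)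
      · have h1 := one_le_nB' p hcore (pPrimeCore p G) hKc hO
        have h2 := nP_quot_add_le p (pPrimeCore p G)
        exact D_of_quot_pprime _ hKc (D_mono (by omega) ih)

end Cfsg.Agent.Lib.Helper4.DlSylow
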