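import Mathlib
import Cfsg.Agent.S4454
import Cfsg.Agent.S0894
import Cfsg.Agent.Lib.Helper15.Extraspecial
import Cfsg.Agent.Lib.Helper15.Relative

/-!
# Cyclic groups acting on extraspecial groups, fixed point freely modulo the centre (helper4)
-/

set_option autoImplicit false

namespace Cfsg.Agent.Lib.Helper4.ESCyclic

open Cfsg Cfsg.Agent.Lib Cfsg.Agent.Lib.Helper15
open scoped ComplexConjugate

theorem isExtraspecial_of_equiv {A B : Type*} [Group A] [Group B] {p : ℕ} (e : A ≃* B)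
    (h : IsExtraspecial p A) : IsExtraspecial p B := by
  obtain ⟨⟨h1, h2, h3⟩, h4⟩ := h
  have hcen : ∀ b : B, b ∈ Subgroup.center B ↔ e.symm b ∈ Subgroup.center A := by
    intro b
    rw [Subgroup.mem_center_iff, Subgroup.mem_center_iff]
    constructor
    · intro hb a
      apply e.injective
      rw [map_mul, map_mul, e.apply_symm_apply]
      exact hb (e a)
    · intro hb c
      apply e.symm.injective
      rw [map_mul, map_mul]
      exact hb (e.symm c)
  have hfr : ∀ b : B, b ∈ frattini B ↔ e.symm b ∈ frattini A := by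
    intro b
    constructor
    · intro hb
      exact frattini_le_comap_frattini_of_surjective (φ := e.symm.toMonoidHom) e.symm.surjective hb
    · intro hb
      have := frattini_le_comap_frattini_of_surjective (φ := e.toMonoidHom) e.surjective hb
      simpa using this
  have hco : ∀ b : B, b ∈ commutator B ↔ e.symm b ∈ commutator A := by
    intro b
    have h5 : commutator B = (commutator A).map e.toMonoidHom := by
      rw [commutator_def, commutator_def, Subgroup.map_commutator,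
        Subgroup.map_top_of_surjective _ e.surjective]
    rw [h5, Subgroup.mem_map]
    constructor
    · rintro ⟨a, ha, rfl⟩
      simpa using ha
    · intro hb
      exact ⟨_, hb, by simp⟩
  refine ⟨⟨h1.of_equiv e, ?_, ?_⟩, ?_⟩
  · ext b
    rw [hfr, hcen, h2]
  · ext b
    rw [hco, hcen, h3]
  · rw [← h4]
    exact Nat.card_congr (Subgroup.centerCongr e).symm.toEquiv


theorem es_cyclic_dvd {Γ : Type*} [Group Γ] [Finite Γ] {p : ℕ} [hp : Fact p.Prime]
    (P H : Subgroup Γ) [hPn : P.Normal] (hP : IsExtraspecial p ↥P) (n : ℕ)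
    (hn : Nat.card P = p ^ (2 * n + 1)) (hH : IsCyclic H) (hcop : (Nat.card H).Coprime p)
    (htop : P ⊔ H = ⊤)
    (hfix : ∀ x ∈ H, x ≠ 1 → ∀ g ∈ P, (x * g = g * x ↔ ∀ u ∈ P, u * g = g * u)) :
    Nat.card H ∣ p ^ n + 1 ∨ Nat.card H ∣ p ^ n - 1 := by
  classical
  have := Fintype.ofFinite Γ
  by_cases hH1 : H = ⊥
  · left
    rw [hH1, Subgroup.card_bot]
    exact one_dvd _
  set Z : Subgroup Γ := (Subgroup.center ↥P).map P.subtype with hZ
  have hZn : Z.Normal := ConjAct.normal_of_characteristic_of_normal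
  have hZP : Z ≤ P := Subgroup.map_subtype_le _
  have hmemZ : ∀ g : Γ, g ∈ Z ↔ g ∈ P ∧ ∀ u ∈ P, u * g = g * u := by
    intro g
    rw [hZ, Subgroup.mem_map]
    constructor
    · rintro ⟨c, hc, rfl⟩
      refine ⟨c.2, fun u hu => ?_⟩
      exact congrArg Subtype.val (Subgroup.mem_center_iff.1 hc ⟨u, hu⟩)
    · rintro ⟨hg, hc⟩
      refine ⟨⟨g, hg⟩, ?_, rfl⟩
      rw [Subgroup.mem_center_iff]
      intro u
      exact Subtype.ext (hc u u.2)
  have hcardZ : Nat.card Z = p := by
    rw [hZ, Subgroup.card_map_of_injective P.subtype_injective, hP.2]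
  have hmul : ∀ x : Γ, ∃ u ∈ P, ∃ h ∈ H, x = u * h := by
    intro x
    have hx : x ∈ ((P ⊔ H : Subgroup Γ) : Set Γ) := by rw [htop]; trivial
    rw [Subgroup.normal_mul] at hx
    obtain ⟨u, hu, h, hh, rfl⟩ := Set.mem_mul.1 hx
    exact ⟨u, hu, h, hh, rfl⟩
  have hdisj : Disjoint P H := by
    rw [Subgroup.disjoint_def]
    intro x hxP hxH
    have h1 : orderOf x ∣ p ^ (2 * n + 1) := hn ▸ Subgroup.orderOf_dvd_natCard P hxP
    have h2 : orderOf x ∣ Nat.card H := Subgroup.orderOf_dvd_natCard H hxH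
    have h3 : Nat.Coprime (Nat.card H) (p ^ (2 * n + 1)) := Nat.Coprime.pow_right _ hcop
    exact orderOf_eq_one_iff.1 (Nat.eq_one_of_dvd_coprimes h3 h2 h1)
  have hcompl : Subgroup.IsComplement' P H := by
    apply Subgroup.isComplement'_of_disjoint_and_mul_eq_univ hdisj
    rw [← Subgroup.normal_mul, htop]
    rfl
  have hidx : P.index = Nat.card H := hcompl.symm.index_eq_card
  have hPtop : P ≠ ⊤ := by
    intro h
    apply hH1
    rw [← Subgroup.index_eq_one, hidx] at h
    exact Subgroup.card_eq_one.1 h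
  have hn0 := es_n_ne_zero hP hn
  have hZne : Z ≠ P := by
    intro h
    rw [h, hn] at hcardZ
    have h1 : p ^ (2 * n + 1) = p ^ 1 := by rw [hcardZ, pow_one]
    have := Nat.pow_right_injective hp.out.two_le h1
    omega
  have hcyc : IsCyclic (Γ ⧸ P) := by
    apply isCyclic_of_surjective ((QuotientGroup.mk' P).comp H.subtype)
    intro q
    obtain ⟨x, rfl⟩ := QuotientGroup.mk_surjective q
    obtain ⟨u, hu, h, hh, rfl⟩ := hmul x
    refine ⟨⟨h, hh⟩, ?_⟩
    show ((h : Γ) : Γ ⧸ P) = ((u * h : Γ) : Γ ⧸ P)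
    rw [QuotientGroup.mk_mul, (QuotientGroup.eq_one_iff u).2 hu, one_mul]
  -- commutators of elements of `P` lie in `Z`
  have hcomm : ∀ a ∈ P, ∀ b ∈ P, a * b * a⁻¹ * b⁻¹ ∈ Z := by
    intro a ha b hb
    have h0 := Subgroup.commutator_mem_commutator (Subgroup.mem_top (⟨a, ha⟩ : P))
      (Subgroup.mem_top (⟨b, hb⟩ : P))
    rw [commutatorElement_def, ← commutator_def, hP.1.2.2] at h0
    exact ⟨_, h0, rfl⟩
  have hfrob : ∀ x : Γ, x ∉ P → ∀ g : Γ, g ∈ P → x * g * x⁻¹ * g⁻¹ ∈ Z → g ∈ Z := by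
    intro x hx g hg hxg
    obtain ⟨u, hu, h, hh, rfl⟩ := hmul x
    have hh1 : h ≠ 1 := by
      rintro rfl
      exact hx (by rwa [mul_one])
    have hg' : h * g * h⁻¹ ∈ P := hPn.conj_mem g hg h
    obtain ⟨c, hcdef⟩ : ∃ c : Γ, c = h * g * h⁻¹ * g⁻¹ := ⟨_, rfl⟩
    have hc : c ∈ Z := by
      have h1 := hcomm u hu _ hg'
      have h2 : c = (u * (h * g * h⁻¹) * u⁻¹ * (h * g * h⁻¹)⁻¹)⁻¹ * (u * h * g * (u * h)⁻¹ * g⁻¹) := by
        rw [hcdef]; group
      rw [h2]
      exact Z.mul_mem (Z.inv_mem h1) hxg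
    have hhc : h * c = c * h := ((hfix h hh hh1 c (hZP hc)).2 ((hmemZ c).1 hc).2)
    have hpow : ∀ k : ℕ, h ^ k * g * (h ^ k)⁻¹ = c ^ k * g := by
      intro k
      induction k with
      | zero => simp
      | succ k ih =>
        have hck : h * c ^ k = c ^ k * h := (Commute.pow_right (show Commute h c from hhc) k)
        calc h ^ (k + 1) * g * (h ^ (k + 1))⁻¹ = h * (h ^ k * g * (h ^ k)⁻¹) * h⁻¹ := by
              rw [pow_succ']; group
          _ = h * (c ^ k * g) * h⁻¹ := by rw [ih]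
          _ = (h * c ^ k) * g * h⁻¹ := by group
          _ = c ^ k * (h * g * h⁻¹ * g⁻¹) * g := by rw [hck]; group
          _ = c ^ (k + 1) * g := by rw [← hcdef, pow_succ]
    have h1 : c ^ orderOf h = 1 := by
      have := hpow (orderOf h)
      rw [pow_orderOf_eq_one, one_mul, inv_one, mul_one] at this
      exact (mul_eq_right.1 this.symm)
    have h2 : orderOf c ∣ p := hcardZ ▸ Subgroup.orderOf_dvd_natCard Z hc
    have h3 : orderOf c ∣ Nat.card H :=
      (orderOf_dvd_of_pow_eq_one h1).trans (Subgroup.orderOf_dvd_natCard H hh)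
    have hc1 : c = 1 := orderOf_eq_one_iff.1 (Nat.eq_one_of_dvd_coprimes hcop h3 h2)
    have h4 : h * g = g * h := by
      have : h * g = (h * g * h⁻¹ * g⁻¹) * (g * h) := by group
      rw [this, ← hcdef, hc1, one_mul]
    exact (hmemZ g).2 ⟨hg, (hfix h hh hh1 g hg).1 h4⟩
  -- `Z` is central in `Γ`
  have hZc : ∀ (x : Γ) (z : Γ), z ∈ Z → x * z * x⁻¹ = z := by
    intro x z hz
    obtain ⟨u, hu, h, hh, rfl⟩ := hmul x
    have h1 : u * z = z * u := ((hmemZ z).1 hz).2 u hu
    have h2 : h * z = z * h := by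
      by_cases hh1 : h = 1
      · rw [hh1, one_mul, mul_one]
      · exact (hfix h hh hh1 z (hZP hz)).2 ((hmemZ z).1 hz).2
    calc u * h * z * (u * h)⁻¹ = u * (h * z) * h⁻¹ * u⁻¹ := by group
      _ = u * z * u⁻¹ := by rw [h2]; group
      _ = z := by rw [h1]; group
  -- the characters
  obtain ⟨-, hcnt⟩ := Cfsg.Agent.S0894.result p n hP hn
  have hne : Nonempty {χ : IrrCharacter P // (χ : P → ℂ) 1 = (p : ℂ) ^ n} := by
    have h1 : Nat.card {χ : IrrCharacter P // (χ : P → ℂ) 1 = (p : ℂ) ^ n} ≠ 0 := by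
      rw [hcnt]
      have := hp.out.two_le
      omega
    exact (Nat.card_ne_zero.1 h1).1
  obtain ⟨χ, hχ1⟩ := hne
  have hχne : (χ : P → ℂ) 1 ≠ 1 := by
    rw [hχ1]
    intro h
    have : p ^ n = 1 := by exact_mod_cast h
    exact hn0 ((Nat.pow_eq_one.1 this).resolve_left hp.out.one_lt.ne')
  have hchar : IsCharacter Z (resFun hZP (χ : P → ℂ)) := char_resFun hZP (irr_char χ.2)
  have hne0 : resFun hZP (χ : P → ℂ) ≠ 0 := fun h => irr_one_ne_zero χ.2 (congrFun h 1)
  obtain ⟨θ, hθ, hcon⟩ := exists_constituent hchar hne0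
  have hinvΓ : ∀ x : Γ, cj Z x θ = θ := by
    intro x
    funext z
    rw [cj_apply]
    congr 1
    exact Subtype.ext (hZc x z z.2)
  have hres := rel_restrict_eq_smul hZP χ.2 hθ hcon (fun k => hinvΓ k)
  have hθ1 : θ 1 = 1 := by
    apply Helper80.char_one_eq_one_of_comm (G := Z) _ ⟨θ, hθ⟩
    intro a b
    apply Subtype.ext
    exact ((hmemZ b).1 b.2).2 a (hZP a.2)
  have hcoef : classInner (resFun hZP (χ : P → ℂ)) θ = (p : ℂ) ^ n := by
    have := congrFun hres 1
    rw [Pi.smul_apply, hθ1, smul_eq_mul, mul_one] at this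
    rw [← this]
    exact hχ1
  rw [hcoef] at hres
  have hram : indFun (Z.subgroupOf P) (fun z : Z.subgroupOf P => θ ⟨(z : P), z.2⟩)
      = fun g => ((p ^ n : ℕ) : ℂ) * (χ : P → ℂ) g := by
    have hinv' : ∀ g : P, cj (Z.subgroupOf P) g (downFun Z P θ) = downFun Z P θ := by
      intro g
      rw [cj_downFun, hinvΓ]
    funext g
    by_cases hg : g ∈ Z.subgroupOf P
    · have h1 := congrFun (restrict_indFun_of_invariant (Z.subgroupOf P) _ hinv') ⟨g, hg⟩
      have h2 : (Z.subgroupOf P).index = p ^ n * p ^ n := by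
        have h3 := Subgroup.card_mul_index (Z.subgroupOf P)
        rw [card_subgroupOf_of_le hZP, hcardZ, hn] at h3
        have e : p ^ (2 * n + 1) = p * (p ^ n * p ^ n) := by ring
        rw [e] at h3
        exact Nat.eq_of_mul_eq_mul_left hp.out.pos h3
      have h4 := congrFun hres ⟨(g : Γ), hg⟩
      have h5 : (χ : P → ℂ) g = (p : ℂ) ^ n * θ ⟨(g : Γ), hg⟩ := h4
      rw [h5]
      refine h1.trans ?_
      rw [Pi.smul_apply, h2, smul_eq_mul]
      push_cast
      rw [mul_assoc]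
      rfl
    · rw [show (fun z : Z.subgroupOf P => θ ⟨(z : P), z.2⟩) = downFun Z P θ from rfl,
        indFun_normal_not_mem _ _ hg]
      have hg' : g ∉ Subgroup.center P := by
        intro h
        exact hg (show (g : Γ) ∈ Z from ⟨g, h, rfl⟩)
      rw [es_vanish hP χ.2 hχne hg', mul_zero]
  have hfin := Cfsg.Agent.S4454.result P Z hZP hPtop hZne hcyc hfrob ⟨θ, hθ⟩
    (fun x z => congrFun (hinvΓ x) z) χ (p ^ n) hram
  rw [hidx] at hfin
  have h1 : 1 ≤ p ^ n := Nat.one_le_pow _ _ hp.out.pos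
  rcases hfin with h | h
  · right
    have : ((Nat.card H : ℕ) : ℤ) ∣ ((p ^ n - 1 : ℕ) : ℤ) := by
      rw [Nat.cast_sub h1]
      exact_mod_cast h
    exact_mod_cast this
  · left
    exact_mod_cast h

end Cfsg.Agent.Lib.Helper4.ESCyclic
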