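import Mathlib
import Cfsg.Agent.S0887
import Cfsg.Agent.Lib.Helper15.CoprimeCount
import Cfsg.Agent.Lib.Helper15.Extraspecial
import Cfsg.Agent.Lib.Helper15.Relative
import Cfsg.Agent.Lib.Helper2.PGroupFrattini
import Cfsg.Agent.Lib.Helper80.Core
import Cfsg.Agent.Lib.Helper80.Linear
import Cfsg.Agent.Lib.Helper80.CoreDvd

/-!
# Nilpotent groups with exactly one irreducible character of degree divisible by `p` (helper4)
-/

set_option autoImplicit false

namespace Cfsg.Agent.Lib.Helper4.OneSing

open Cfsg Cfsg.Agent.Lib Cfsg.Agent.Lib.Helper15 Cfsg.Agent.Lib.Helper74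
open scoped ComplexConjugate

variable {G : Type*} [Group G] [Finite G]

/-- in a nilpotent group `G = P C_G(P)` for a Sylow subgroup `P` -/
theorem sylow_sup_centralizer [hnil : Group.IsNilpotent G] {p : ℕ} [Fact p.Prime] (P : Sylow p G) :
    (P : Subgroup G) ⊔ Subgroup.centralizer (P : Set G) = ⊤ := by
  have hnorm : ∀ (r : ℕ) [Fact r.Prime] (R : Sylow r G), (R : Subgroup G).Normal := by
    intro r _ R
    have q := (Group.isNilpotent_of_finite_tfae (G := G)).out 0 3
    exact (q.mp hnil) r inferInstance R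
  rw [← Subgroup.index_eq_one]
  by_contra hne
  obtain ⟨r, hr, hdvd⟩ := Nat.exists_prime_and_dvd hne
  have : Fact r.Prime := ⟨hr⟩
  by_cases hrp : r = p
  · subst hrp
    exact P.not_dvd_index (hdvd.trans (Subgroup.index_dvd_of_le le_sup_left))
  · obtain ⟨R⟩ : Nonempty (Sylow r G) := inferInstance
    have hRC : (R : Subgroup G) ≤ Subgroup.centralizer (P : Set G) := by
      intro x hx
      rw [Subgroup.mem_centralizer_iff]
      intro y hy
      have hdis : Disjoint (P : Subgroup G) (R : Subgroup G) :=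
        IsPGroup.disjoint_of_ne p r (fun h => hrp h.symm) _ _ P.2 R.2
      exact Subgroup.commute_of_normal_of_disjoint _ _ (hnorm p P) (hnorm r R) hdis y x hy hx
    exact R.not_dvd_index (hdvd.trans (Subgroup.index_dvd_of_le (hRC.trans le_sup_right)))


/-- a nontrivial solvable group has two distinct linear characters -/
theorem exists_two_linear {Q : Type*} [Group Q] [Finite Q] [Group.IsSolvable Q] [Nontrivial Q] :
    ∃ β₁ β₂ : IrrCharacter Q, (β₁ : Q → ℂ) 1 = 1 ∧ (β₂ : Q → ℂ) 1 = 1 ∧ β₁ ≠ β₂ := by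
  have h1 := Helper80.card_linear (G := Q)
  have h2 : (commutator Q).index ≠ 1 := by
    rw [Ne, Subgroup.index_eq_one]
    exact (Group.IsSolvable.commutator_lt_top_of_nontrivial Q).ne
  have h3 : 1 < Nat.card {χ : IrrCharacter Q // (χ : Q → ℂ) 1 = 1} := by
    rw [h1]
    have : (commutator Q).index ≠ 0 := Subgroup.index_ne_zero_of_finite
    omega
  have : Finite {χ : IrrCharacter Q // (χ : Q → ℂ) 1 = 1} := Nat.finite_of_card_ne_zero (by omega)
  obtain ⟨a, b, hab⟩ := Finite.one_lt_card_iff_nontrivial.1 h3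
  exact ⟨a.1, b.1, a.2, b.2, fun h => hab (Subtype.ext h)⟩

/-- a nilpotent group with at most one irreducible character of degree divisible by `p`, and at
least one, is a `p`-group -/
theorem isPGroup_of_unique [hnil : Group.IsNilpotent G] {p : ℕ} [hp : Fact p.Prime]
    (χ₀ : IrrCharacter G) (h0 : p ∣ charDegree (χ₀ : G → ℂ))
    (huniq : ∀ χ : IrrCharacter G, p ∣ charDegree (χ : G → ℂ) → χ = χ₀) : IsPGroup p G := by
  classical
  have := Fintype.ofFinite G
  obtain ⟨P⟩ : Nonempty (Sylow p G) := inferInstance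
  have hPn : (P : Subgroup G).Normal := by
    have q := (Group.isNilpotent_of_finite_tfae (G := G)).out 0 3
    exact (q.mp hnil) p inferInstance P
  -- a constituent of the restriction
  have hchar : IsCharacter (P : Subgroup G) (fun n : (P : Subgroup G) => (χ₀ : G → ℂ) n) :=
    char_restrict (irr_char χ₀.2) _
  have hne : (fun n : (P : Subgroup G) => (χ₀ : G → ℂ) n) ≠ 0 := fun h =>
    irr_one_ne_zero χ₀.2 (congrFun h 1)
  obtain ⟨α, hα, hcon⟩ := exists_constituent hchar hne
  obtain ⟨h1, h2⟩ := Cfsg.Agent.S0887.result (P : Subgroup G) χ₀ χ₀.2 α hα hcon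
    (charDegree (χ₀ : G → ℂ)) (charDegree α)
    (Helper80.char_one_eq_charDegree (irr_char χ₀.2)) (Helper80.char_one_eq_charDegree (irr_char hα))
  have hαp : p ∣ charDegree α := by
    by_contra hnd
    have h3 : charDegree α ∣ Nat.card (P : Subgroup G) :=
      Helper80.charDegree_dvd_card ⟨α, hα⟩
    obtain ⟨k, hk⟩ := P.2.exists_card_eq
    rw [hk] at h3
    obtain ⟨j, -, hj⟩ := (Nat.dvd_prime_pow hp.out).1 h3
    have hj0 : j = 0 := by
      by_contra hj0
      exact hnd (hj ▸ dvd_pow_self p hj0)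
    rw [hj0, pow_zero] at hj
    rw [hj, Nat.div_one] at h2
    exact P.not_dvd_index (h0.trans h2)
  -- invariance
  have hinert : inertia (P : Subgroup G) α = ⊤ := by
    rw [eq_top_iff, ← sylow_sup_centralizer P, sup_le_iff]
    refine ⟨le_inertia _ (irr_cf hα), fun c hc => ?_⟩
    rw [mem_inertia]
    funext n
    rw [cj_apply]
    congr 1
    apply Subtype.ext
    show c * (n : G) * c⁻¹ = n
    rw [Subgroup.mem_centralizer_iff] at hc
    rw [← hc n n.2, mul_assoc, mul_inv_cancel, mul_one]
  have hinv : ∀ (g : G) (n : (P : Subgroup G)),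
      α ⟨g * n * g⁻¹, hPn.conj_mem (n : G) n.2 g⟩ = α n := by
    intro g n
    have hg : g ∈ inertia (P : Subgroup G) α := hinert ▸ Subgroup.mem_top g
    exact congrFun ((mem_inertia _ α g).1 hg) n
  have hcop : (Nat.card (P : Subgroup G)).Coprime (P : Subgroup G).index := by
    obtain ⟨k, hk⟩ := P.2.exists_card_eq
    rw [hk]
    exact Nat.Coprime.pow_left _ ((Nat.Prime.coprime_iff_not_dvd hp.out).2 P.not_dvd_index)
  obtain ⟨χ, hχ, hχP⟩ := exists_extension_of_coprime (P : Subgroup G) hcop hα hinv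
  have hres : (fun n : (P : Subgroup G) => χ n) = α := funext hχP
  have hgal := gallagher (P : Subgroup G) hχ (by rw [hres]; exact hα)
  -- `P = ⊤`
  by_contra hnp
  have hPtop : (P : Subgroup G) ≠ ⊤ := by
    intro h
    apply hnp
    have := P.2
    rw [h] at this
    exact this.of_surjective (Subgroup.topEquiv (G := G)).toMonoidHom
      (Subgroup.topEquiv (G := G)).surjective
  have hnt : Nontrivial (G ⧸ (P : Subgroup G)) := by
    rw [← Finite.one_lt_card_iff_nontrivial, ← Subgroup.index_eq_card]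
    have h1 : (P : Subgroup G).index ≠ 1 := fun h => hPtop (Subgroup.index_eq_one.1 h)
    have h2 : (P : Subgroup G).index ≠ 0 := Subgroup.index_ne_zero_of_finite
    omega
  obtain ⟨β₁, β₂, hb1, hb2, hb12⟩ := exists_two_linear (Q := G ⧸ (P : Subgroup G))
  have key : ∀ β : IrrCharacter (G ⧸ (P : Subgroup G)), (β : G ⧸ (P : Subgroup G) → ℂ) 1 = 1 →
      (fun g : G => (β : G ⧸ (P : Subgroup G) → ℂ) (g : G ⧸ (P : Subgroup G))) ∈
        {β : G → ℂ | IsIrrCharacter G β ∧
          classInner (fun n : (P : Subgroup G) => β n) (fun _ => 1) ≠ 0} ∧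
      (fun g : G => (β : G ⧸ (P : Subgroup G) → ℂ) (g : G ⧸ (P : Subgroup G))) * χ = χ₀ := by
    intro β hβ1
    have hmem : (fun g : G => (β : G ⧸ (P : Subgroup G) → ℂ) (g : G ⧸ (P : Subgroup G))) ∈
        {β : G → ℂ | IsIrrCharacter G β ∧
          classInner (fun n : (P : Subgroup G) => β n) (fun _ => 1) ≠ 0} := by
      refine ⟨Helper80.isIrrCharacter_inflate _ β.2, ?_⟩
      have e : (fun n : (P : Subgroup G) => (β : G ⧸ (P : Subgroup G) → ℂ) ((n : G) : G ⧸ (P : Subgroup G)))
          = fun _ => 1 := by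
        funext n
        rw [(QuotientGroup.eq_one_iff (n : G)).2 n.2, hβ1]
      rw [e, irr_inner_self irr_one]
      exact one_ne_zero
    refine ⟨hmem, ?_⟩
    have h3 := (hgal.mapsTo hmem).1
    have h4 := huniq ⟨_, h3⟩ (by
      have e : charDegree ((fun g : G => (β : G ⧸ (P : Subgroup G) → ℂ) (g : G ⧸ (P : Subgroup G))) * χ)
          = charDegree α := by
        apply Nat.cast_injective (R := ℂ)
        rw [← Helper80.char_one_eq_charDegree (irr_char h3),
          ← Helper80.char_one_eq_charDegree (irr_char hα), Pi.mul_apply, ← hχP 1]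
        show (β : G ⧸ (P : Subgroup G) → ℂ) 1 * χ 1 = χ 1
        rw [hβ1, one_mul]
      show p ∣ charDegree ((fun g : G => (β : G ⧸ (P : Subgroup G) → ℂ) (g : G ⧸ (P : Subgroup G))) * χ)
      rw [e]
      exact hαp)
    exact congrArg Subtype.val h4
  have h5 := hgal.injOn (key β₁ hb1).1 (key β₂ hb2).1
    (show _ * χ = _ * χ by rw [(key β₁ hb1).2, (key β₂ hb2).2])
  apply hb12
  apply Subtype.ext
  funext q
  obtain ⟨g, rfl⟩ := QuotientGroup.mk_surjective q
  exact congrFun h5 g


/-- `|Z(G)| χ(1)² ≤ |G|` -/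
theorem card_center_mul_sq_le (χ : IrrCharacter G) :
    Nat.card (Subgroup.center G) * charDegree (χ : G → ℂ) ^ 2 ≤ Nat.card G := by
  classical
  have := Fintype.ofFinite G
  have h := irr_inner_self χ.2
  unfold classInner at h
  have hc : (Nat.card G : ℂ) ≠ 0 := card_ne_zero G
  have h2 : ∑ g : G, (χ : G → ℂ) g * conj ((χ : G → ℂ) g) = (Nat.card G : ℂ) := by
    field_simp at h
    exact h
  have h3 : ∑ g : G, Complex.normSq ((χ : G → ℂ) g) = (Nat.card G : ℝ) := by
    have : ((∑ g : G, Complex.normSq ((χ : G → ℂ) g) : ℝ) : ℂ) = ((Nat.card G : ℝ) : ℂ) := by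
      push_cast
      rw [← h2]
      exact Finset.sum_congr rfl fun g _ => (Complex.mul_conj _).symm
    exact_mod_cast this
  have h4 : ∑ g ∈ Finset.univ.filter (fun g : G => g ∈ Subgroup.center G),
      Complex.normSq ((χ : G → ℂ) g) ≤ ∑ g : G, Complex.normSq ((χ : G → ℂ) g) :=
    Finset.sum_le_sum_of_subset_of_nonneg (Finset.filter_subset _ _)
      fun g _ _ => Complex.normSq_nonneg _
  have h5 : ∀ g ∈ Finset.univ.filter (fun g : G => g ∈ Subgroup.center G),
      Complex.normSq ((χ : G → ℂ) g) = ((charDegree (χ : G → ℂ) : ℝ)) ^ 2 := by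
    intro g hg
    have hg' : g ∈ Subgroup.center G := (Finset.mem_filter.1 hg).2
    have h6 := irr_central_norm χ.2 hg'
    rw [Complex.mul_conj, Helper80.char_one_eq_charDegree (irr_char χ.2)] at h6
    have : ((Complex.normSq ((χ : G → ℂ) g) : ℝ) : ℂ)
        = (((charDegree (χ : G → ℂ) : ℝ)) ^ 2 : ℝ) := by
      rw [h6]; push_cast; ring
    exact_mod_cast this
  rw [Finset.sum_congr rfl h5, Finset.sum_const, nsmul_eq_mul, h3] at h4
  have h7 : (Finset.univ.filter (fun g : G => g ∈ Subgroup.center G)).card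
      = Nat.card (Subgroup.center G) := by
    rw [Nat.card_eq_fintype_card, Fintype.card_subtype]
  rw [h7] at h4
  exact_mod_cast h4

/-- a `p`-group with exactly one nonlinear irreducible character is an extraspecial `2`-group -/
theorem extraspecial_of_unique {p : ℕ} [hp : Fact p.Prime] (hG : IsPGroup p G)
    (χ₀ : IrrCharacter G) (h0 : p ∣ charDegree (χ₀ : G → ℂ))
    (huniq : ∀ χ : IrrCharacter G, p ∣ charDegree (χ : G → ℂ) → χ = χ₀) :
    p = 2 ∧ IsExtraspecial 2 G := by
  classical
  have := Fintype.ofFinite G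
  obtain ⟨m, hm⟩ := hG.exists_card_eq
  -- degrees
  have hlin : ∀ χ : IrrCharacter G, χ ≠ χ₀ → charDegree (χ : G → ℂ) = 1 := by
    intro χ hχ
    have h3 : charDegree (χ : G → ℂ) ∣ Nat.card G := Helper80.charDegree_dvd_card χ
    rw [hm] at h3
    obtain ⟨j, -, hj⟩ := (Nat.dvd_prime_pow hp.out).1 h3
    by_cases hj0 : j = 0
    · rw [hj, hj0, pow_zero]
    · exact absurd (huniq χ (hj ▸ dvd_pow_self p hj0)) hχ
  obtain ⟨b, hb⟩ : ∃ b, charDegree (χ₀ : G → ℂ) = p ^ b := by
    have h3 : charDegree (χ₀ : G → ℂ) ∣ Nat.card G := Helper80.charDegree_dvd_card χ₀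
    rw [hm] at h3
    obtain ⟨j, -, hj⟩ := (Nat.dvd_prime_pow hp.out).1 h3
    exact ⟨j, hj⟩
  have hb0 : b ≠ 0 := by
    rintro rfl
    rw [hb, pow_zero] at h0
    exact hp.out.one_lt.ne' (Nat.dvd_one.1 h0)
  -- counting
  have hcl := Helper80.card_linear (G := G)
  have hcount : Nat.card {χ : IrrCharacter G // (χ : G → ℂ) 1 = 1}
      = (Finset.univ.erase χ₀).card := by
    rw [Nat.card_eq_fintype_card, Fintype.card_subtype]
    congr 1
    ext χ
    simp only [Finset.mem_filter, Finset.mem_univ, true_and, Finset.mem_erase, and_true]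
    constructor
    · rintro h rfl
      rw [Helper80.char_one_eq_charDegree (irr_char χ.2), hb] at h
      have : p ^ b = 1 := by exact_mod_cast h
      exact hb0 ((Nat.pow_eq_one.1 this).resolve_left hp.out.one_lt.ne')
    · intro h
      rw [Helper80.char_one_eq_charDegree (irr_char χ.2), hlin χ h, Nat.cast_one]
  have hsum := Helper80.sum_sq_charDegree (G := G)
  rw [← Finset.add_sum_erase _ _ (Finset.mem_univ χ₀),
    Finset.sum_congr rfl (fun χ hχ => by rw [hlin χ (Finset.ne_of_mem_erase hχ), one_pow]),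
    Finset.sum_const, smul_eq_mul, mul_one, ← hcount, hcl, hb] at hsum
  -- `I + p^(2b) = I * |G'|`
  have hidx := Subgroup.card_mul_index (commutator G)
  obtain ⟨c, hc⟩ := (hG.to_subgroup (commutator G)).exists_card_eq
  set I := (commutator G).index with hI
  have hIpos : 0 < I := Nat.pos_of_ne_zero Subgroup.index_ne_zero_of_finite
  have hIdvd : I ∣ p ^ m := hm ▸ Subgroup.index_dvd_card _
  obtain ⟨a, -, ha⟩ := (Nat.dvd_prime_pow hp.out).1 hIdvd
  have e1 : (p ^ b) ^ 2 + I = p ^ c * I := by rw [hsum, ← hidx, hc]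
  have hc0 : c ≠ 0 := by
    rintro rfl
    rw [pow_zero, one_mul] at e1
    have : 0 < (p ^ b) ^ 2 := by have := hp.out.pos; positivity
    omega
  have e2 : (p ^ b) ^ 2 = (p ^ c - 1) * I := by
    have h1 : 1 ≤ p ^ c := Nat.one_le_pow _ _ hp.out.pos
    zify [h1]
    zify at e1
    linarith
  have e3 : p ^ c - 1 = 1 := by
    have h1 : (p ^ c - 1) ∣ p ^ (b * 2) := by rw [pow_mul]; exact ⟨I, e2⟩
    obtain ⟨j, -, hj⟩ := (Nat.dvd_prime_pow hp.out).1 h1
    by_cases hj0 : j = 0
    · rw [hj, hj0, pow_zero]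
    · exfalso
      have h2 : p ∣ p ^ c - 1 := hj ▸ dvd_pow_self p hj0
      have h3 : p ∣ p ^ c := dvd_pow_self p hc0
      have h4 : 1 ≤ p ^ c := Nat.one_le_pow _ _ hp.out.pos
      have h5 : p ∣ 1 := by
        have := (Nat.dvd_sub h3 h2)
        rwa [Nat.sub_sub_self h4] at this
      exact hp.out.one_lt.ne' (Nat.dvd_one.1 h5)
  have e4 : p ^ c = 2 := by omega
  have hp2 : p = 2 := by
    have h1 : p ∣ 2 := e4 ▸ dvd_pow_self p hc0
    exact (Nat.prime_dvd_prime_iff_eq hp.out Nat.prime_two).1 h1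
  have hcomm2 : Nat.card (commutator G) = 2 := by rw [hc, e4]
  refine ⟨hp2, ?_⟩
  subst hp2
  -- the commutator subgroup is central
  have hcz : commutator G ≤ Subgroup.center G := by
    intro x hx
    rw [Subgroup.mem_center_iff]
    intro g
    by_cases hx1 : x = 1
    · rw [hx1, mul_one, one_mul]
    have hconj : g * x * g⁻¹ ∈ commutator G :=
      (inferInstance : (commutator G).Normal).conj_mem x hx g
    have hne : g * x * g⁻¹ ≠ 1 := by
      intro h
      apply hx1
      have : x = g⁻¹ * (g * x * g⁻¹) * g := by group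
      rw [this, h]; group
    have hcard2 : ∀ u v : commutator G, u ≠ 1 → v ≠ 1 → u = v := by
      intro u v hu hv
      by_contra huv
      have h3 : 3 ≤ Nat.card (commutator G) := by
        have := Fintype.ofFinite (commutator G)
        rw [Nat.card_eq_fintype_card]
        have h4 : ({1, u, v} : Finset (commutator G)).card = 3 := by
          rw [Finset.card_insert_of_notMem, Finset.card_insert_of_notMem, Finset.card_singleton]
          · simpa using huv
          · simp only [Finset.mem_insert, Finset.mem_singleton, not_or]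
            exact ⟨fun h => hu h.symm, fun h => hv h.symm⟩
        rw [← h4]
        exact Finset.card_le_univ _
      omega
    have := hcard2 ⟨g * x * g⁻¹, hconj⟩ ⟨x, hx⟩ (fun h => hne (congrArg Subtype.val h))
      (fun h => hx1 (congrArg Subtype.val h))
    have h6 : g * x * g⁻¹ = x := congrArg Subtype.val this
    calc g * x = g * x * g⁻¹ * g := by group
      _ = x * g := by rw [h6]
  have hcen : commutator G = Subgroup.center G := by
    apply Subgroup.eq_of_le_of_card_ge hcz
    have h1 := card_center_mul_sq_le χ₀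
    rw [hb, e2, e3, one_mul, ← hidx, hcomm2] at h1
    rw [hcomm2]
    exact Nat.le_of_mul_le_mul_right h1 hIpos
  refine ⟨⟨hG, ?_, hcen⟩, by rw [← hcen, hcomm2]⟩
  rw [← hcen]
  apply le_antisymm
  · apply Helper2.frattini_le_of_elementary_quotient (p := 2) (commutator G) le_rfl
    intro x
    rw [hcen, Subgroup.mem_center_iff]
    intro y
    -- `y x y⁻¹ x⁻¹` is central of order dividing two
    obtain ⟨k, hkdef⟩ : ∃ k : G, k = y * x * y⁻¹ * x⁻¹ := ⟨_, rfl⟩
    have hk : k ∈ commutator G := by
      have h0 := Subgroup.commutator_mem_commutator (Subgroup.mem_top y) (Subgroup.mem_top x)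
      rw [commutatorElement_def] at h0
      rw [hkdef]
      exact h0
    have hkz : k ∈ Subgroup.center G := hcz hk
    have hk2 : k ^ 2 = 1 := by
      have := pow_card_eq_one' (G := commutator G) (x := ⟨k, hk⟩)
      rw [hcomm2] at this
      exact congrArg Subtype.val this
    have h1 : y * x = k * (x * y) := by rw [hkdef]; group
    have hz := Subgroup.mem_center_iff.1 hkz
    calc y * x ^ 2 = (y * x) * x := by rw [sq, mul_assoc]
      _ = k * (x * y) * x := by rw [← h1]
      _ = k * x * (y * x) := by group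
      _ = k * x * (k * (x * y)) := by rw [← h1]
      _ = k * (x * k) * (x * y) := by group
      _ = k * (k * x) * (x * y) := by rw [hz x]
      _ = k ^ 2 * (x ^ 2 * y) := by simp only [sq, mul_assoc]
      _ = x ^ 2 * y := by rw [hk2, one_mul]
  · exact Helper2.commutator_le_frattini hG

end Cfsg.Agent.Lib.Helper4.OneSing
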