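import Mathlib
import Cfsg.Prelude.Def_Characters
import Cfsg.Prelude.Def_Blocks
import Cfsg.Agent.Lib.Helper3.Table
import Cfsg.Agent.Lib.Helper3.Induction
import Cfsg.Agent.Lib.Helper74.Indicator
import Cfsg.Agent.Lib.Helper76.ItoDeg
import Cfsg.Agent.Lib.Helper80.Linear
import Cfsg.Agent.Lib.Helper80.Constituent

/-!
# Groups `N ⋊ P` with `N` abelian of odd order inverted by an element of `P` (helper4)

The permutation character `1_P^G` is multiplicity free and all its constituents have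
Frobenius–Schur indicator `+1`.
-/

set_option autoImplicit false
set_option linter.style.haveILetI false
set_option linter.unusedSectionVars false

namespace Cfsg.Agent.Lib.Helper4.RealAvg

open Cfsg Cfsg.Agent.Lib.Helper3
open scoped ComplexConjugate

section grp
variable {G : Type*} [Group G]

theorem exists_decomp (N P : Subgroup G) (hN : N.Normal) (hprod : N ⊔ P = ⊤) (g : G) :
    ∃ n ∈ N, ∃ u ∈ P, g = n * u := by
  have h : g ∈ N ⊔ P := hprod ▸ Subgroup.mem_top g
  rw [← SetLike.mem_coe, Subgroup.normal_mul] at h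
  obtain ⟨n, hn, u, hu, rfl⟩ := Set.mem_mul.1 h
  exact ⟨n, hn, u, hu, rfl⟩

theorem eq_one_of_mem_both {N P : Subgroup G} (hdisj : N ⊓ P = ⊥) {x : G} (h1 : x ∈ N)
    (h2 : x ∈ P) : x = 1 := by
  have : x ∈ N ⊓ P := ⟨h1, h2⟩
  rw [hdisj] at this
  exact Subgroup.mem_bot.1 this

theorem bijective_mul (N P : Subgroup G) (hN : N.Normal) (hdisj : N ⊓ P = ⊥)
    (hprod : N ⊔ P = ⊤) : Function.Bijective (fun x : N × P => (x.1 : G) * (x.2 : G)) := by
  constructor
  · rintro ⟨⟨a, ha⟩, ⟨b, hb⟩⟩ ⟨⟨c, hc⟩, ⟨d, hd⟩⟩ h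
    simp only at h
    have h1 : c⁻¹ * a = d * b⁻¹ := by
      have : c⁻¹ * (a * b) * b⁻¹ = c⁻¹ * (c * d) * b⁻¹ := by rw [h]
      simpa [mul_assoc] using this
    have h2 : c⁻¹ * a = 1 :=
      eq_one_of_mem_both hdisj (N.mul_mem (N.inv_mem hc) ha) (h1 ▸ P.mul_mem hd (P.inv_mem hb))
    have h3 : d * b⁻¹ = 1 := h1 ▸ h2
    have h4 : a = c := (inv_mul_eq_one.1 h2).symm
    have h5 : d = b := mul_inv_eq_one.1 h3
    subst h4 h5
    rfl
  · intro g
    obtain ⟨n, hn, u, hu, rfl⟩ := exists_decomp N P hN hprod g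
    exact ⟨(⟨n, hn⟩, ⟨u, hu⟩), rfl⟩

/-- A central involution of `P` inverts `N`. -/
theorem exists_inverting [Finite G] (N P : Subgroup G) (hN : N.Normal)
    (hNc : ∀ a ∈ N, ∀ b ∈ N, a * b = b * a) (hP : IsPGroup 2 P) (hP1 : P ≠ ⊥)
    (hdisj : N ⊓ P = ⊥) (hprod : N ⊔ P = ⊤) (hN1 : N ≠ ⊥)
    (hmin : ∀ M : Subgroup G, M.Normal → M ≠ ⊥ → N ≤ M) :
    ∃ z ∈ P, ∀ n ∈ N, z * n * z⁻¹ = n⁻¹ := by
  haveI : Nontrivial P := (Subgroup.nontrivial_iff_ne_bot P).2 hP1
  haveI : Fact (Nat.Prime 2) := ⟨Nat.prime_two⟩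
  haveI := hP.center_nontrivial
  have h2 : 2 ∣ Nat.card (Subgroup.center P) := by
    obtain ⟨k, hk⟩ := (IsPGroup.iff_card).1 (hP.to_subgroup (Subgroup.center P))
    have h1 : 1 < Nat.card (Subgroup.center P) := Finite.one_lt_card
    rw [hk] at h1 ⊢
    rcases k with _ | k
    · simp at h1
    · exact Dvd.intro_left _ rfl
  obtain ⟨⟨⟨z, hzP⟩, hzc⟩, hz⟩ := exists_prime_orderOf_dvd_card' 2 h2
  have hz2 : orderOf z = 2 := by
    rw [← hz, ← Subgroup.orderOf_coe, ← Subgroup.orderOf_coe]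
  have hzz : z * z = 1 := by
    rw [← pow_two, ← hz2]; exact pow_orderOf_eq_one z
  have hzinv : z⁻¹ = z := inv_eq_of_mul_eq_one_left hzz
  have hz1 : z ≠ 1 := by
    intro h; rw [h, orderOf_one] at hz2; norm_num at hz2
  have hzcomm : ∀ u ∈ P, u * z = z * u := by
    intro u hu
    have := Subgroup.mem_center_iff.1 hzc ⟨u, hu⟩
    exact congrArg Subtype.val this
  -- the fixed points of z in N
  let C : Subgroup G := N ⊓ Subgroup.centralizer {z}
  have hCmem : ∀ x, x ∈ C ↔ x ∈ N ∧ z * x = x * z := by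
    intro x
    simp only [C, Subgroup.mem_inf, Subgroup.mem_centralizer_singleton_iff]
    constructor
    · rintro ⟨h1, h2⟩; exact ⟨h1, by first | exact h2 | exact h2.symm⟩
    · rintro ⟨h1, h2⟩; exact ⟨h1, by first | exact h2 | exact h2.symm⟩
  have hCn : C.Normal := by
    constructor
    intro c hc g
    obtain ⟨hcN, hcz⟩ := (hCmem c).1 hc
    obtain ⟨n, hn, u, hu, rfl⟩ := exists_decomp N P hN hprod g
    have h1 : u * c * u⁻¹ ∈ N := hN.conj_mem c hcN u
    have h2 : n * u * c * (n * u)⁻¹ = u * c * u⁻¹ := by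
      have : n * u * c * (n * u)⁻¹ = n * (u * c * u⁻¹) * n⁻¹ := by group
      rw [this, hNc n hn _ h1]; group
    rw [h2, hCmem]
    refine ⟨h1, ?_⟩
    have h3 : u⁻¹ * z = z * u⁻¹ := hzcomm _ (P.inv_mem hu)
    calc z * (u * c * u⁻¹) = (z * u) * c * u⁻¹ := by group
      _ = (u * z) * c * u⁻¹ := by rw [hzcomm u hu]
      _ = u * (z * c) * u⁻¹ := by group
      _ = u * (c * z) * u⁻¹ := by rw [hcz]
      _ = u * c * (z * u⁻¹) := by group
      _ = u * c * (u⁻¹ * z) := by rw [h3]
      _ = u * c * u⁻¹ * z := by group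
  have hCbot : C = ⊥ := by
    by_contra hC
    have hNC := hmin C hCn hC
    -- z is central in G
    have hzG : ∀ g : G, g * z = z * g := by
      intro g
      obtain ⟨n, hn, u, hu, rfl⟩ := exists_decomp N P hN hprod g
      have h1 := ((hCmem n).1 (hNC hn)).2
      calc n * u * z = n * (u * z) := by group
        _ = n * (z * u) := by rw [hzcomm u hu]
        _ = (n * z) * u := by group
        _ = (z * n) * u := by rw [h1]
        _ = z * (n * u) := by group
    have hZn : (Subgroup.zpowers z).Normal := by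
      constructor
      intro x hx g
      obtain ⟨k, rfl⟩ := Subgroup.mem_zpowers_iff.1 hx
      have : g * z ^ k * g⁻¹ = z ^ k := by
        have hc : Commute g z := hzG g
        have := (hc.zpow_right k).eq
        rw [this]; group
      rw [this]
      exact Subgroup.zpow_mem_zpowers z k
    have hZ1 : Subgroup.zpowers z ≠ ⊥ := by
      intro h
      exact hz1 (Subgroup.zpowers_eq_bot.1 h)
    have hNZ := hmin _ hZn hZ1
    apply hN1
    rw [eq_bot_iff]
    intro x hx
    have hxP : x ∈ P := (Subgroup.zpowers_le.2 hzP) (hNZ hx)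
    exact Subgroup.mem_bot.2 (eq_one_of_mem_both hdisj hx hxP)
  refine ⟨z, hzP, fun n hn => ?_⟩
  have h1 : z * n * z⁻¹ ∈ N := hN.conj_mem n hn z
  have hw : n * (z * n * z⁻¹) ∈ C := by
    rw [hCmem]
    refine ⟨N.mul_mem hn h1, ?_⟩
    rw [hzinv]
    calc z * (n * (z * n * z)) = (z * n * z) * n * z := by group
      _ = (z * n * z) * n * z := rfl
      _ = n * (z * n * z) * z := by
          have h1' : z * n * z ∈ N := by
            have := h1
            rwa [hzinv] at this
          have := hNc (z * n * z) h1' n hn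
          rw [this]
  rw [hCbot, Subgroup.mem_bot] at hw
  exact (eq_inv_of_mul_eq_one_right hw)

end grp

section chr
variable {G : Type*} [Group G] [Fintype G]

omit [Fintype G] in
open Classical in
theorem ext_one_apply (P : Subgroup G) (g : G) :
    extendByZero P (fun _ => (1 : ℂ)) g = if g ∈ P then 1 else 0 := by
  split_ifs with h
  · exact extendByZero_apply_mem P _ h
  · exact extendByZero_apply_not_mem P _ h

open Classical in
/-- number of fixed points of `u` on `N`. -/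
noncomputable def cfix (N : Subgroup G) [Fintype N] (u : G) : ℂ :=
  ∑ n : N, if u * (n : G) * u⁻¹ = n then 1 else 0

open Classical in
/-- number of points of `N` inverted by `u`. -/
noncomputable def cinv (N : Subgroup G) [Fintype N] (u : G) : ℂ :=
  ∑ n : N, if (n : G) * (u * (n : G) * u⁻¹) = 1 then 1 else 0

theorem conj_cfix (N : Subgroup G) [Fintype N] (u : G) : conj (cfix N u) = cfix N u := by
  unfold cfix
  rw [map_sum]
  refine Finset.sum_congr rfl fun n _ => ?_
  split_ifs <;> simp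

theorem sum_ext_sq (N P : Subgroup G) [Fintype N] [Fintype P] (hN : N.Normal) (hdisj : N ⊓ P = ⊥) (hprod : N ⊔ P = ⊤) :
    ∑ x : G, extendByZero P (fun _ => (1 : ℂ)) (x * x) = ∑ u : P, cinv N u := by
  classical
  rw [← (bijective_mul N P hN hdisj hprod).sum_comp
    (fun x => extendByZero P (fun _ => (1 : ℂ)) (x * x)), Fintype.sum_prod_type_right]
  refine Finset.sum_congr rfl fun u _ => ?_
  unfold cinv
  refine Finset.sum_congr rfl fun n _ => ?_
  rw [ext_one_apply]
  have hkey : (n : G) * u * (n * u) = (n : G) * (u * n * (u : G)⁻¹) * (u * u) := by group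
  have hiff : ((n : G) * u * (n * u) ∈ P) ↔ (n : G) * (u * n * (u : G)⁻¹) = 1 := by
    constructor
    · intro h
      apply eq_one_of_mem_both hdisj (N.mul_mem n.2 (hN.conj_mem _ n.2 _))
      have : (n : G) * (u * n * (u : G)⁻¹) = (n : G) * u * (n * u) * ((u : G) * u)⁻¹ := by
        rw [hkey]; group
      rw [this]
      exact P.mul_mem h (P.inv_mem (P.mul_mem u.2 u.2))
    · intro h
      rw [hkey, h, one_mul]
      exact P.mul_mem u.2 u.2
  simp only [hiff]

theorem sum_ext_conj (N P : Subgroup G) [Fintype N] [Fintype P] (hN : N.Normal) (hdisj : N ⊓ P = ⊥) (hprod : N ⊔ P = ⊤)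
    (u : P) :
    ∑ x : G, extendByZero P (fun _ => (1 : ℂ)) (x⁻¹ * u * x) = (Nat.card P : ℂ) * cfix N u := by
  classical
  rw [← (bijective_mul N P hN hdisj hprod).sum_comp
    (fun x => extendByZero P (fun _ => (1 : ℂ)) (x⁻¹ * u * x)), Fintype.sum_prod_type_right]
  have : ∀ v : P, ∑ n : N, extendByZero P (fun _ => (1 : ℂ))
      (((n : G) * (v : G))⁻¹ * u * ((n : G) * (v : G))) = cfix N u := by
    intro v
    unfold cfix
    refine Finset.sum_congr rfl fun n _ => ?_
    rw [ext_one_apply]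
    have hiff : (((n : G) * (v : G))⁻¹ * u * ((n : G) * (v : G)) ∈ P) ↔
        (u : G) * n * (u : G)⁻¹ = n := by
      constructor
      · intro h
        have h1 : (n : G)⁻¹ * (u * n * (u : G)⁻¹) = 1 := by
          apply eq_one_of_mem_both hdisj (N.mul_mem (N.inv_mem n.2) (hN.conj_mem _ n.2 _))
          have : (n : G)⁻¹ * (u * n * (u : G)⁻¹) =
              (v : G) * (((n : G) * (v : G))⁻¹ * u * ((n : G) * (v : G))) * (v : G)⁻¹ *
                (u : G)⁻¹ := by group
          rw [this]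
          exact P.mul_mem (P.mul_mem (P.mul_mem v.2 h) (P.inv_mem v.2)) (P.inv_mem u.2)
        exact (inv_mul_eq_one.1 h1).symm
      · intro h
        have : ((n : G) * (v : G))⁻¹ * u * ((n : G) * (v : G)) =
            (v : G)⁻¹ * ((n : G)⁻¹ * (u * n * (u : G)⁻¹)) * u * v := by group
        rw [this, h, inv_mul_cancel, mul_one]
        exact P.mul_mem (P.mul_mem (P.inv_mem v.2) u.2) v.2
    simp only [hiff]
  simp only [this]
  rw [Finset.sum_const, Finset.card_univ, nsmul_eq_mul, Nat.card_eq_fintype_card]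

theorem sum_cinv_eq (N P : Subgroup G) [Fintype N] [Fintype P] (hN : N.Normal) {z : G} (hz : z ∈ P)
    (hzN : ∀ n ∈ N, z * n * z⁻¹ = n⁻¹) : ∑ u : P, cinv N u = ∑ u : P, cfix N u := by
  classical
  rw [← Equiv.sum_comp (Equiv.mulLeft (⟨z, hz⟩ : P)) (fun u : P => cinv N u)]
  refine Finset.sum_congr rfl fun u _ => ?_
  unfold cinv cfix
  refine Finset.sum_congr rfl fun n _ => ?_
  have h1 : ((Equiv.mulLeft (⟨z, hz⟩ : P)) u : P) = (⟨z, hz⟩ : P) * u := rfl
  have h2 : (((Equiv.mulLeft (⟨z, hz⟩ : P)) u : P) : G) = z * u := by rw [h1]; rfl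
  rw [h2]
  have h3 : z * u * n * (z * (u : G))⁻¹ = ((u : G) * n * (u : G)⁻¹)⁻¹ := by
    rw [← hzN _ (hN.conj_mem _ n.2 u)]; group
  rw [h3]
  have hiff : ((n : G) * ((u : G) * n * (u : G)⁻¹)⁻¹ = 1) ↔ (u : G) * n * (u : G)⁻¹ = n := by
    rw [mul_inv_eq_one]; exact eq_comm
  simp only [hiff]

/-- The key identity: `⟨π, π⟩ = (1/|G|) ∑ π(x²)` for `π = 1_P^G`. -/
theorem key_identity (N P : Subgroup G) (hN : N.Normal) (hdisj : N ⊓ P = ⊥) (hprod : N ⊔ P = ⊤)
    {z : G} (hz : z ∈ P) (hzN : ∀ n ∈ N, z * n * z⁻¹ = n⁻¹) :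
    classInner (indFun P (fun _ => (1 : ℂ))) (indFun P (fun _ => (1 : ℂ))) =
      (Nat.card G : ℂ)⁻¹ * ∑ x : G, indFun P (fun _ => (1 : ℂ)) (x * x) := by
  classical
  have := Fintype.ofFinite N
  have := Fintype.ofFinite P
  have hG : (Nat.card G : ℂ) ≠ 0 := by exact_mod_cast Nat.card_pos.ne'
  have hPc : (Nat.card P : ℂ) ≠ 0 := by exact_mod_cast Nat.card_pos.ne'
  rw [frobenius_reciprocity P _ (isClassFunction_indFun P _)]
  have hL : classInner (fun _ : P => (1 : ℂ)) (fun h : P => indFun P (fun _ => (1 : ℂ)) (h : G)) =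
      (Nat.card P : ℂ)⁻¹ * ∑ u : P, cfix N u := by
    unfold classInner
    congr 1
    refine Finset.sum_congr rfl fun u _ => ?_
    show (1 : ℂ) * conj (indFun P (fun _ => (1 : ℂ)) (u : G)) = _
    rw [indFun_apply, sum_ext_conj N P hN hdisj hprod u, ← mul_assoc, inv_mul_cancel₀ hPc,
      one_mul, one_mul, conj_cfix]
  rw [hL]
  have hR : ∑ x : G, indFun P (fun _ => (1 : ℂ)) (x * x) =
      (Nat.card P : ℂ)⁻¹ * ((Nat.card G : ℂ) * ∑ u : P, cinv N u) := by
    simp only [indFun_apply]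
    rw [← Finset.mul_sum, Finset.sum_comm]
    congr 1
    have : ∀ y : G, ∑ x : G, extendByZero P (fun _ => (1 : ℂ)) (y⁻¹ * (x * x) * y) =
        ∑ u : P, cinv N u := by
      intro y
      rw [← sum_ext_sq N P hN hdisj hprod,
        ← Equiv.sum_comp (MulAut.conj y⁻¹).toEquiv
          (fun x => extendByZero P (fun _ => (1 : ℂ)) (x * x))]
      refine Finset.sum_congr rfl fun x _ => ?_
      congr 1
      simp only [MulEquiv.toEquiv_eq_coe, EquivLike.coe_coe, MulAut.conj_apply]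
      group
    simp only [this]
    rw [Finset.sum_const, Finset.card_univ, nsmul_eq_mul, Nat.card_eq_fintype_card]
  rw [hR, sum_cinv_eq N P hN hz hzN]
  field_simp

open Cfsg.Agent.Lib.Helper74 in
/-- Every constituent of `1_P^G` has multiplicity one and Frobenius–Schur indicator `+1`. -/
theorem mult_free (N P : Subgroup G) (hN : N.Normal) (hdisj : N ⊓ P = ⊥) (hprod : N ⊔ P = ⊤)
    {z : G} (hz : z ∈ P) (hzN : ∀ n ∈ N, z * n * z⁻¹ = n⁻¹) (χ : IrrCharacter G)
    (hχ : classInner (indFun P (fun _ => (1 : ℂ))) (χ : G → ℂ) ≠ 0) :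
    classInner (indFun P (fun _ => (1 : ℂ))) (χ : G → ℂ) = 1 ∧ fsInd (χ : G → ℂ) = 1 := by
  classical
  have hπ : IsCharacter G (indFun P (fun _ => (1 : ℂ))) :=
    isCharacter_indFun P (isCharacter_one (G := P))
  have hkey := key_identity N P hN hdisj hprod hz hzN
  generalize indFun P (fun _ => (1 : ℂ)) = π at *
  obtain ⟨m, hm, hexp, -⟩ := Cfsg.Agent.Lib.Helper80.exists_mult_spec hπ
  have h1 : classInner π π = ∑ ψ : IrrCharacter G, (m ψ : ℂ) * (m ψ : ℂ) := by
    rw [classInner_eq_sum_coeff (Helper3.IsCharacter.isClassFunction hπ)]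
    refine Finset.sum_congr rfl fun ψ _ => ?_
    rw [← Helper3.classInner_conj_symm π ψ, hm]; simp
  have h2 : (Nat.card G : ℂ)⁻¹ * ∑ x : G, π (x * x) =
      ∑ ψ : IrrCharacter G, (m ψ : ℂ) * fsInd (ψ : G → ℂ) := by
    have hv : ∀ g, π g = ∑ ψ : IrrCharacter G, (m ψ : ℂ) * (ψ : G → ℂ) g := by
      intro g
      conv_lhs => rw [hexp]
      simp [Finset.sum_apply]
    simp only [hv]
    rw [Finset.sum_comm, Finset.mul_sum]
    refine Finset.sum_congr rfl fun ψ _ => ?_
    unfold fsInd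
    rw [← Finset.mul_sum]; ring
  have hex : ∀ ψ : IrrCharacter G, ∃ v : ℤ, fsInd (ψ : G → ℂ) = v ∧ v ≤ 1 := by
    intro ψ
    rcases fsInd_cases ψ with h | h | h
    · exact ⟨0, by simp [h], by norm_num⟩
    · exact ⟨1, by simp [h], by norm_num⟩
    · exact ⟨-1, by simp [h], by norm_num⟩
  choose v hv hv1 using hex
  have h3 : ∑ ψ : IrrCharacter G, (m ψ : ℤ) * ((m ψ : ℤ) - v ψ) = 0 := by
    have : ((∑ ψ : IrrCharacter G, (m ψ : ℤ) * ((m ψ : ℤ) - v ψ) : ℤ) : ℂ) = 0 := by
      push_cast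
      simp only [mul_sub, Finset.sum_sub_distrib]
      rw [← h1, hkey, h2, sub_eq_zero]
      refine Finset.sum_congr rfl fun ψ _ => ?_
      rw [hv]
    exact_mod_cast this
  have hnn : ∀ ψ ∈ (Finset.univ : Finset (IrrCharacter G)),
      0 ≤ (m ψ : ℤ) * ((m ψ : ℤ) - v ψ) := by
    intro ψ _
    rcases Nat.eq_zero_or_pos (m ψ) with h | h
    · simp [h]
    · apply mul_nonneg (by positivity)
      have := hv1 ψ
      have h' : (1 : ℤ) ≤ m ψ := by exact_mod_cast h
      linarith
  have h4 := (Finset.sum_eq_zero_iff_of_nonneg hnn).1 h3 χ (Finset.mem_univ _)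
  have hmχ : m χ ≠ 0 := by
    intro h0; apply hχ; rw [hm, h0]; simp
  have h5 : (m χ : ℤ) - v χ = 0 := by
    rcases mul_eq_zero.1 h4 with h | h
    · exact absurd (by exact_mod_cast h) hmχ
    · exact h
  have h6 : (1 : ℤ) ≤ m χ := by exact_mod_cast Nat.pos_of_ne_zero hmχ
  have h7 := hv1 χ
  have h8 : v χ = 1 := by linarith
  have h9 : m χ = 1 := by
    have : (m χ : ℤ) = 1 := by linarith
    exact_mod_cast this
  exact ⟨by rw [hm, h9]; simp, by rw [hv, h8]; simp⟩

/-- A linear character whose restriction to `P` contains the trivial character is trivial on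
`P`. -/
theorem eq_one_on_of_inner_ne_zero (P : Subgroup G) [Fintype P] {χ : G → ℂ}
    (hχ : IsCharacter G χ) (h1 : χ 1 = 1)
    (hne : classInner (fun _ : P => (1 : ℂ)) (fun u : P => χ u) ≠ 0) : ∀ u ∈ P, χ u = 1 := by
  classical
  let F : P →* ℂ :=
    { toFun := fun u => χ u
      map_one' := h1
      map_mul' := fun a b => Cfsg.Agent.Lib.Helper80.char_mul_of_degree_one hχ h1 a b }
  by_cases hF : F = 1
  · intro u hu
    have := DFunLike.congr_fun hF ⟨u, hu⟩
    exact this
  · exfalso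
    apply hne
    have h0 := sum_hom_units_eq_zero F hF
    unfold classInner
    have : ∑ g : P, (1 : ℂ) * conj (χ g) = conj (∑ g : P, F g) := by
      rw [map_sum]
      refine Finset.sum_congr rfl fun g _ => ?_
      rw [one_mul]; rfl
    rw [this, h0]; simp

/-- `1_P^G` has a nonlinear constituent. -/
theorem exists_nonlinear (N P : Subgroup G) (hN : N.Normal) (hP1 : P ≠ ⊥)
    (hdisj : N ⊓ P = ⊥) (hprod : N ⊔ P = ⊤) (hN1 : N ≠ ⊥)
    (hmin : ∀ M : Subgroup G, M.Normal → M ≠ ⊥ → N ≤ M) :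
    ∃ χ : IrrCharacter G, classInner (indFun P (fun _ => (1 : ℂ))) (χ : G → ℂ) ≠ 0 ∧
      (χ : G → ℂ) 1 ≠ 1 := by
  classical
  have := Fintype.ofFinite P
  by_contra hcon
  push Not at hcon
  have hπ : IsCharacter G (indFun P (fun _ => (1 : ℂ))) :=
    isCharacter_indFun P (isCharacter_one (G := P))
  obtain ⟨m, hm, hexp, -⟩ := Cfsg.Agent.Lib.Helper80.exists_mult_spec hπ
  -- every constituent is trivial
  have htriv : ∀ χ : IrrCharacter G, m χ ≠ 0 → ∀ g, (χ : G → ℂ) g = 1 := by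
    intro χ hχ
    have hne : classInner (indFun P (fun _ => (1 : ℂ))) (χ : G → ℂ) ≠ 0 := by
      rw [hm]; exact_mod_cast hχ
    have h1 := hcon χ hne
    have hc := IsIrrCharacter.isCharacter χ.2
    rw [frobenius_reciprocity P _ (IsCharacter.isClassFunction hc)] at hne
    have hPone := eq_one_on_of_inner_ne_zero P hc h1 hne
    obtain ⟨f, hf⟩ := Cfsg.Agent.Lib.Helper80.exists_hom_of_degree_one hc h1
    have hPker : P ≤ f.ker := by
      intro u hu
      rw [MonoidHom.mem_ker]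
      apply Units.ext
      rw [← hf, hPone u hu]; rfl
    have hker1 : f.ker ≠ ⊥ := by
      intro h
      apply hP1
      rw [eq_bot_iff, ← h]; exact hPker
    have hNker := hmin f.ker inferInstance hker1
    intro g
    have : g ∈ f.ker := by
      have h2 : N ⊔ P ≤ f.ker := sup_le hNker hPker
      rw [hprod] at h2
      exact h2 (Subgroup.mem_top g)
    rw [hf, MonoidHom.mem_ker.1 this]; rfl
  have hv : ∀ g, indFun P (fun _ => (1 : ℂ)) g =
      ∑ ψ : IrrCharacter G, (m ψ : ℂ) * (ψ : G → ℂ) g := by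
    intro g
    conv_lhs => rw [hexp]
    simp [Finset.sum_apply]
  have hconst : ∀ g, indFun P (fun _ => (1 : ℂ)) g = indFun P (fun _ => (1 : ℂ)) 1 := by
    intro g
    rw [hv, hv]
    refine Finset.sum_congr rfl fun ψ _ => ?_
    by_cases h : m ψ = 0
    · simp [h]
    · rw [htriv ψ h, htriv ψ h]
  obtain ⟨n, hn, hn1⟩ : ∃ n ∈ N, n ≠ 1 := by
    by_contra h
    push Not at h
    apply hN1
    rw [eq_bot_iff]
    intro x hx
    exact Subgroup.mem_bot.2 (h x hx)
  have h0 : indFun P (fun _ => (1 : ℂ)) n = 0 := by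
    rw [indFun_apply, Finset.sum_eq_zero, mul_zero]
    intro x _
    apply extendByZero_apply_not_mem
    intro hx
    have h1 : x⁻¹ * n * x ∈ N := by
      have := hN.conj_mem n hn x⁻¹
      simpa using this
    have h2 := eq_one_of_mem_both hdisj h1 hx
    apply hn1
    have : n = x * (x⁻¹ * n * x) * x⁻¹ := by group
    rw [this, h2]; group
  have h1 := hconst n
  rw [h0, indFun_one] at h1
  have h2 : (P.index : ℂ) ≠ 0 := by
    exact_mod_cast (Subgroup.index_ne_zero_of_finite (H := P))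
  simp at h1
  exact h2 (by exact_mod_cast h1.symm)

end chr

end Cfsg.Agent.Lib.Helper4.RealAvg
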