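import Cfsg.Agent.Lib.Helper4.RealAvgA

/-!
# Real linear characters and their action on irreducible characters (helper4)
-/

set_option autoImplicit false
set_option linter.style.haveILetI false
set_option linter.unusedSectionVars false

namespace Cfsg.Agent.Lib.Helper4.RealAvg

open Cfsg Cfsg.Agent.Lib.Helper3
open scoped ComplexConjugate

section lin
variable {G : Type*} [Group G] [Fintype G]

/-- A linear character with Frobenius–Schur indicator `1` is trivial on squares. -/
theorem lin_sq {l : G → ℂ} (hl : IsCharacter G l) (h1 : l 1 = 1)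
    (hfs : Cfsg.Agent.Lib.Helper74.fsInd l = 1) (g : G) : l (g * g) = 1 := by
  classical
  have hmul := Cfsg.Agent.Lib.Helper80.char_mul_of_degree_one hl h1
  let F : G →* ℂ :=
    { toFun := fun g => l (g * g)
      map_one' := by simp [h1]
      map_mul' := fun a b => by
        simp only [hmul]; ring }
  by_cases hF : F = 1
  · exact DFunLike.congr_fun hF g
  · exfalso
    have h0 : ∑ g : G, l (g * g) = 0 := sum_hom_units_eq_zero F hF
    unfold Cfsg.Agent.Lib.Helper74.fsInd at hfs
    rw [h0] at hfs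
    simp at hfs

theorem lin_mul_self {l : G → ℂ} (hl : IsCharacter G l) (h1 : l 1 = 1)
    (hsq : ∀ g, l (g * g) = 1) (g : G) : l g * l g = 1 := by
  rw [← Cfsg.Agent.Lib.Helper80.char_mul_of_degree_one hl h1, hsq]

theorem lin_conj {l : G → ℂ} (hl : IsCharacter G l) (h1 : l 1 = 1)
    (hsq : ∀ g, l (g * g) = 1) (g : G) : conj (l g) = l g := by
  rcases mul_self_eq_one_iff.1 (lin_mul_self hl h1 hsq g) with h | h <;> simp [h]

theorem lin_mul_conj {l : G → ℂ} (hl : IsCharacter G l) (h1 : l 1 = 1)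
    (hsq : ∀ g, l (g * g) = 1) (g : G) : l g * conj (l g) = 1 := by
  rw [lin_conj hl h1 hsq, lin_mul_self hl h1 hsq]

theorem lin_mul_irr {l : G → ℂ} (hl : IsCharacter G l) (h1 : l 1 = 1)
    (hsq : ∀ g, l (g * g) = 1) {χ : G → ℂ} (hχ : IsIrrCharacter G χ) :
    IsIrrCharacter G (l * χ) := by
  rw [isIrrCharacter_iff]
  refine ⟨IsCharacter.mul hl (IsIrrCharacter.isCharacter hχ), ?_⟩
  rw [← classInner_irr_self hχ]
  unfold classInner
  congr 1
  refine Finset.sum_congr rfl fun g _ => ?_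
  simp only [Pi.mul_apply, map_mul]
  calc l g * χ g * (conj (l g) * conj (χ g)) = (l g * conj (l g)) * (χ g * conj (χ g)) := by ring
    _ = _ := by rw [lin_mul_conj hl h1 hsq, one_mul]

theorem fsInd_lin_mul {l : G → ℂ} (hsq : ∀ g, l (g * g) = 1) (χ : G → ℂ) :
    Cfsg.Agent.Lib.Helper74.fsInd (l * χ) = Cfsg.Agent.Lib.Helper74.fsInd χ := by
  unfold Cfsg.Agent.Lib.Helper74.fsInd
  congr 1
  refine Finset.sum_congr rfl fun g _ => ?_
  simp [hsq]

theorem lin_restrict_irr {l : G → ℂ} (hl : IsCharacter G l) (h1 : l 1 = 1)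
    (hsq : ∀ g, l (g * g) = 1) (P : Subgroup G) [Fintype P] :
    IsIrrCharacter P (fun u : P => l u) := by
  rw [isIrrCharacter_iff]
  refine ⟨IsCharacter.restrict hl P, ?_⟩
  have hPc : (Nat.card P : ℂ) ≠ 0 := by exact_mod_cast Nat.card_pos.ne'
  unfold classInner
  simp only [lin_mul_conj hl h1 hsq]
  rw [Finset.sum_const, Finset.card_univ, nsmul_eq_mul, mul_one, Nat.card_eq_fintype_card,
    inv_mul_cancel₀]
  rw [← Nat.card_eq_fintype_card]; exact hPc

/-- elements of odd order are squares. -/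
theorem lin_eq_one_of_pow {l : G → ℂ} (hsq : ∀ g, l (g * g) = 1) {q : ℕ} (hq : Odd q) {n : G}
    (hn : n ^ q = 1) : l n = 1 := by
  obtain ⟨k, rfl⟩ := hq
  have : n = n ^ (k + 1) * n ^ (k + 1) := by
    rw [← pow_add]
    have : k + 1 + (k + 1) = (2 * k + 1) + 1 := by ring
    rw [this, pow_succ, hn, one_mul]
  rw [this, hsq]

/-- The number of real linear characters `l` with `l χ₀ = ψ` is at most `ψ(1)`, if
`χ₀` restricted to `P` contains the trivial character, and `G = N P` where the elements of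
`N` have odd order. -/
theorem fiber_le (N P : Subgroup G) (hN : N.Normal) (hprod : N ⊔ P = ⊤) {q : ℕ} (hq : Odd q)
    (hNq : ∀ n ∈ N, n ^ q = 1) (χ₀ ψ : IrrCharacter G)
    (h0 : classInner (indFun P (fun _ => (1 : ℂ))) (χ₀ : G → ℂ) ≠ 0)
    (S : Finset (IrrCharacter G))
    (hS : ∀ l ∈ S, (l : G → ℂ) 1 = 1 ∧ (∀ g, (l : G → ℂ) (g * g) = 1) ∧
      (l : G → ℂ) * (χ₀ : G → ℂ) = (ψ : G → ℂ)) :
    S.card ≤ charDegree (ψ : G → ℂ) := by
  classical
  have := Fintype.ofFinite P
  have hψP : IsCharacter P (fun u : P => (ψ : G → ℂ) u) :=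
    IsCharacter.restrict (IsIrrCharacter.isCharacter ψ.2) P
  obtain ⟨m, hm, -, hdeg⟩ := Cfsg.Agent.Lib.Helper80.exists_mult_spec hψP
  have hdeg' : charDegree (fun u : P => (ψ : G → ℂ) u) = charDegree (ψ : G → ℂ) := rfl
  rw [← hdeg', hdeg]
  let r : IrrCharacter G → IrrCharacter P := fun l =>
    if h : IsIrrCharacter P (fun u : P => (l : G → ℂ) u) then ⟨_, h⟩ else
      ⟨_, isIrrCharacter_one⟩
  have hr : ∀ l ∈ S, ((r l : IrrCharacter P) : P → ℂ) = fun u : P => (l : G → ℂ) u := by
    intro l hl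
    obtain ⟨h1, hsq, -⟩ := hS l hl
    have := lin_restrict_irr (IsIrrCharacter.isCharacter l.2) h1 hsq P
    simp only [r, dif_pos this]
  have hinj : Set.InjOn r S := by
    intro l hl l' hl' hrr
    have h1 := hr l hl
    have h2 := hr l' hl'
    rw [hrr, h2] at h1
    apply Subtype.ext
    funext g
    obtain ⟨n, hn, u, hu, rfl⟩ := exists_decomp N P hN hprod g
    obtain ⟨a1, asq, -⟩ := hS l hl
    obtain ⟨b1, bsq, -⟩ := hS l' hl'
    rw [Cfsg.Agent.Lib.Helper80.char_mul_of_degree_one (IsIrrCharacter.isCharacter l.2) a1,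
      Cfsg.Agent.Lib.Helper80.char_mul_of_degree_one (IsIrrCharacter.isCharacter l'.2) b1,
      lin_eq_one_of_pow asq hq (hNq n hn), lin_eq_one_of_pow bsq hq (hNq n hn)]
    have := congrFun h1 ⟨u, hu⟩
    simp only at this
    rw [this]
  have hmpos : ∀ l ∈ S, 1 ≤ m (r l) * charDegree ((r l : IrrCharacter P) : P → ℂ) := by
    intro l hl
    obtain ⟨h1, hsq, hprodl⟩ := hS l hl
    have hlc := IsIrrCharacter.isCharacter l.2
    have hne : m (r l) ≠ 0 := by
      intro hz
      have h2 := hm (r l)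
      rw [hz, hr l hl] at h2
      apply h0
      rw [frobenius_reciprocity P _ (IsIrrCharacter.isClassFunction χ₀.2),
        ← classInner_conj_symm]
      have h3 : classInner (fun h : P => (χ₀ : G → ℂ) h) (fun _ : P => (1 : ℂ)) =
          classInner (fun u : P => (ψ : G → ℂ) u) (fun u : P => (l : G → ℂ) u) := by
        unfold classInner
        congr 1
        refine Finset.sum_congr rfl fun u _ => ?_
        rw [← hprodl]
        simp only [Pi.mul_apply, map_one, mul_one]
        calc (χ₀ : G → ℂ) u = ((l : G → ℂ) u * conj ((l : G → ℂ) u)) * (χ₀ : G → ℂ) u := by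
              rw [lin_mul_conj hlc h1 hsq, one_mul]
          _ = _ := by ring
      rw [h3, h2]; simp
    exact Nat.mul_pos (Nat.pos_of_ne_zero hne)
      (Cfsg.Agent.Lib.Helper80.charDegree_pos_of_irr (r l).2)
  calc S.card = (S.image r).card := (Finset.card_image_of_injOn hinj).symm
    _ = ∑ θ ∈ S.image r, 1 := by simp
    _ ≤ ∑ θ ∈ S.image r, m θ * charDegree (θ : P → ℂ) := by
        apply Finset.sum_le_sum
        intro θ hθ
        obtain ⟨l, hl, rfl⟩ := Finset.mem_image.1 hθ
        exact hmpos l hl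
    _ ≤ ∑ θ : IrrCharacter P, m θ * charDegree (θ : P → ℂ) :=
        Finset.sum_le_sum_of_subset (Finset.subset_univ _)

end lin

end Cfsg.Agent.Lib.Helper4.RealAvg
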